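import Cfsg.Agent.Lib.ReeFourInvolutions.Group

/-!
`²F₄(q)`: every involution of `U¹` is conjugate to a pair element or to a central element.
-/

set_option autoImplicit false
set_option linter.unusedSectionVars false
set_option linter.unusedSimpArgs false
set_option linter.unreachableTactic false
set_option linter.unusedTactic false
set_option maxRecDepth 20000
set_option maxHeartbeats 2000000

namespace CfsgLib.ReeFourInvolutions

open Cfsg.Lie CfsgLib.Chevalley CfsgLib.Twisted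
open CfsgLib.OutAut.F4Pair (full X)

variable {K : Type*} [Field K] [CharP K 2]

/-- Unfolding of the coordinates. -/
macro "f4_unfold_at" h:ident : tactic => `(tactic| simp only [N, o1, o2, o3, o4, o5, o6, o7, o8, map_zero,
  zero_mul, mul_zero, add_zero, zero_add, xG_zero, one_mul, mul_one] at $h:ident)

/-- Turn an equation in `U` into the equations of the coefficients. -/
macro "f4_coords_at" h:ident : tactic => `(tactic|
  (f4_unfold_at $h; replace $h := mul_padding $h; simp only [padding] at $h:ident; f4_norm_at $h;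
   replace $h := list_inj $h))

/-- Prove an equation in `U` coefficient by coefficient. -/
macro "f4_eq" : tactic => `(tactic|
  (simp only [N, o1, o2, o3, o4, o5, o6, o7, o8, map_zero, zero_mul, mul_zero, add_zero, zero_add, xG_zero,
      one_mul, mul_one];
   refine mul_right_cancel (b := padding) ?_; simp only [padding]; f4_norm;
   refine list_congr ?_ ?_ ?_ ?_ ?_ ?_ ?_ ?_ ?_ ?_ ?_ ?_ ?_ ?_ ?_ ?_ ?_ ?_ ?_ ?_ ?_ ?_ ?_ ?_))

theorem o1_zero (σ : K →+* K) : o1 σ 0 = 1 := by simp [o1, xG_zero]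
theorem o2_zero (σ : K →+* K) : o2 σ 0 0 = 1 := by simp [o2, xG_zero]
theorem o3_zero (σ : K →+* K) : o3 σ 0 = 1 := by simp [o3, xG_zero]
theorem o4_zero (σ : K →+* K) : o4 σ 0 0 = 1 := by simp [o4, xG_zero]
theorem o5_zero (σ : K →+* K) : o5 σ 0 = 1 := by simp [o5, xG_zero]
theorem o6_zero (σ : K →+* K) : o6 σ 0 0 = 1 := by simp [o6, xG_zero]
theorem o7_zero (σ : K →+* K) : o7 σ 0 = 1 := by simp [o7, xG_zero]
theorem o8_zero (σ : K →+* K) : o8 σ 0 0 = 1 := by simp [o8, xG_zero]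

/-- Removing trivial orbit elements. -/
macro "o_trim" : tactic => `(tactic| simp only [N, o1_zero, o2_zero, o3_zero, o4_zero, o5_zero, o6_zero, o7_zero,
  o8_zero, one_mul, mul_one])

/-- Conjugation in `²F₄(q)`. -/
def Rel (m : ℕ) (g y : GL chevF4.Idx K) : Prop := ∃ h ∈ twistedF4 K (2 ^ m), h * g * h⁻¹ = y

theorem Rel.refl (m : ℕ) (g : GL chevF4.Idx K) : Rel m g g := ⟨1, one_mem _, by simp⟩

theorem Rel.trans {m : ℕ} {g y z : GL chevF4.Idx K} (h₁ : Rel m g y) (h₂ : Rel m y z) : Rel m g z := by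
  obtain ⟨a, ha, rfl⟩ := h₁
  obtain ⟨b, hb, rfl⟩ := h₂
  exact ⟨b * a, mul_mem hb ha, by group⟩

theorem Rel.symm {m : ℕ} {g y : GL chevF4.Idx K} (h : Rel m g y) : Rel m y g := by
  obtain ⟨a, ha, rfl⟩ := h
  exact ⟨a⁻¹, inv_mem ha, by group⟩

theorem Rel.sq {m : ℕ} {g y : GL chevF4.Idx K} (h : Rel m g y) (hg : g * g = 1) : y * y = 1 := by
  obtain ⟨a, -, rfl⟩ := h
  rw [show a * g * a⁻¹ * (a * g * a⁻¹) = a * (g * g) * a⁻¹ by group, hg, mul_one, mul_inv_cancel]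

theorem rel_of_eq {m : ℕ} {g h y : GL chevF4.Idx K} (hh : h ∈ twistedF4 K (2 ^ m)) (e : h * g = y * h) :
    Rel m g y :=
  ⟨h, hh, by rw [e, mul_inv_cancel_right]⟩

variable {σ : K →+* K} {m : ℕ} (S : Setting σ m)

include S

theorem exists_mul_sigma (w : K) : ∃ r : K, σ r * r = w := by
  have := S.finite
  have key : Function.Injective fun r : K => σ r * r := by
    intro x y h
    by_cases hy : y = 0
    · subst hy
      simpa using h
    have hr : σ (x / y) * (x / y) = 1 := by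
      simp only at h
      have hy' : σ y ≠ 0 := (map_ne_zero σ).2 hy
      rw [map_div₀, div_mul_div_comm, h, div_self (mul_ne_zero hy' hy)]
    set r := x / y with hdef
    have h1 : σ (σ r) * σ r = 1 := by rw [← map_mul, hr, map_one]
    have h0 : σ r ≠ 0 := left_ne_zero_of_mul_eq_one hr
    have h2 : σ (σ r) = r := by
      have := hr.trans h1.symm
      rw [mul_comm (σ (σ r))] at this
      exact (mul_left_cancel₀ h0 this).symm
    have h3 := S.twice r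
    rw [h2, sq] at h3
    have h4 : r = 1 := mul_left_cancel₀ (right_ne_zero_of_mul_eq_one hr) (h3.trans (mul_one r).symm)
    exact (div_eq_one_iff_eq hy).1 h4
  exact (Finite.injective_iff_surjective.1 key) w

/-- The class representative of the pairs. -/
theorem rel_scale_pair {a : K} (ha : a ≠ 0) : Rel m (o1 σ a) (o1 σ 1) := by
  have := S.finite
  obtain ⟨s, hs⟩ : ∃ s : K, s ^ 2 = a :=
    ⟨(frobeniusEquiv K 2).symm a, frobeniusEquiv_symm_pow_p (R := K) (p := 2) a⟩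
  have hs0 : s ≠ 0 := by
    rintro rfl
    exact ha (by rw [← hs]; simp)
  have hs1 : σ s ≠ 0 := (map_ne_zero σ).2 hs0
  refine ⟨wA * wT σ s, mul_mem S.wA_mem (S.wT_mem s), ?_⟩
  have a24 := conj_simple_pow (K := K) ⟨3, by decide⟩ (r := 24) (r' := 23) (k := -2) (by decide) (by decide) (by decide) hs0 a
  have a33 := conj_simple_pow (K := K) ⟨3, by decide⟩ (r := 33) (r' := 33) (k := 0) (by decide) (by decide) (by decide) hs0 (σ a)
  have b23 := conj_simple_pow (K := K) ⟨0, by decide⟩ (r := 23) (r' := 23) (k := 0) (by decide) (by decide) (by decide) hs1 (s ^ (-2 : ℤ) * a)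
  have b33 := conj_simple_pow (K := K) ⟨0, by decide⟩ (r := 33) (r' := 14) (k := -2) (by decide) (by decide) (by decide) hs1 (s ^ (0 : ℤ) * σ a)
  rw [show chevF4.simple ((⟨3, by decide⟩ : Fin chevF4.rank) : ℕ) = 24 from rfl] at a24 a33
  rw [show chevF4.simple ((⟨0, by decide⟩ : Fin chevF4.rank) : ℕ) = 33 from rfl] at b23 b33
  rw [show wA * wT σ s * o1 σ a * (wA * wT σ s)⁻¹ = wA * (nG full.cert 33 (σ s) * (nG full.cert 24 s * o1 σ a *
    (nG full.cert 24 s)⁻¹) * (nG full.cert 33 (σ s))⁻¹) * wA⁻¹ by rw [wT]; group, o1, conj_mul' (nG full.cert 24 s), a24, a33,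
    conj_mul' (nG full.cert 33 (σ s)), b23, b33, conj_mul' wA, wA_move (r' := 33) (by decide), wA_move (r' := 24) (by decide), o1]
  have e : (s : K) ^ (-2 : ℤ) * a = 1 := by
    rw [← hs, _root_.zpow_neg, zpow_ofNat, inv_mul_cancel₀ (pow_ne_zero _ hs0)]
  have e' : σ s ^ (-2 : ℤ) * σ a = 1 := by
    rw [← map_zpow₀, ← map_mul, e, map_one]
  simp only [zpow_zero, one_mul, e, e', map_one]

/-- The representative of the centre. -/
theorem rel_scale_centre {v : K} (hv : v ≠ 0) : Rel m (o8 σ 0 v) (o4 σ 0 1) := by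
  obtain ⟨s, hs⟩ := exists_mul_sigma S (σ v⁻¹)
  have hs0 : s ≠ 0 := by
    rintro rfl
    rw [mul_zero] at hs
    exact hv (by simpa using hs.symm)
  have hs1 : σ s ≠ 0 := (map_ne_zero σ).2 hs0
  have e : s * σ s ^ 2 * v = 1 := by
    have h := congrArg (fun z => σ z ^ 2) hs
    simp only [map_mul, mul_pow, S.twice] at h
    rw [h, inv_mul_cancel₀ hv]
  have e' : s * σ s * σ v = 1 := by
    rw [mul_comm s, hs, map_inv₀, inv_mul_cancel₀ ((map_ne_zero σ).2 hv)]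
  refine Rel.trans (y := o2 σ 0 1) ⟨wT σ s, S.wT_mem s, ?_⟩ ?_
  · have a30 := conj_simple_pow (K := K) ⟨3, by decide⟩ (r := 30) (r' := 31) (k := 1) (by decide) (by decide) (by decide) hs0 v
    have a28 := conj_simple_pow (K := K) ⟨3, by decide⟩ (r := 28) (r' := 29) (k := 1) (by decide) (by decide) (by decide) hs0 (σ v)
    have b31 := conj_simple_pow (K := K) ⟨0, by decide⟩ (r := 31) (r' := 42) (k := 2) (by decide) (by decide) (by decide) hs1 (s ^ (1 : ℤ) * v)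
    have b29 := conj_simple_pow (K := K) ⟨0, by decide⟩ (r := 29) (r' := 36) (k := 1) (by decide) (by decide) (by decide) hs1 (s ^ (1 : ℤ) * σ v)
    rw [show chevF4.simple ((⟨3, by decide⟩ : Fin chevF4.rank) : ℕ) = 24 from rfl] at a30 a28
    rw [show chevF4.simple ((⟨0, by decide⟩ : Fin chevF4.rank) : ℕ) = 33 from rfl] at b31 b29
    simp only [o8, o2, map_zero, map_one, xG_zero, one_mul, mul_zero, zero_add]
    rw [show wT σ s * (X 28 (σ v) * X 30 v) * (wT σ s)⁻¹ = nG full.cert 33 (σ s) * (nG full.cert 24 s *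
      (X 28 (σ v) * X 30 v) * (nG full.cert 24 s)⁻¹) * (nG full.cert 33 (σ s))⁻¹ by rw [wT]; group,
      conj_mul' (nG full.cert 24 s), a28, a30, conj_mul' (nG full.cert 33 (σ s)), b29, b31]
    congr 2
    · rw [zpow_one, zpow_one]; linear_combination e'
    · rw [zpow_one, zpow_ofNat]; linear_combination e
  · refine ⟨wA * wB, mul_mem S.wA_mem S.wB_mem, ?_⟩
    rw [show wA * wB * o2 σ 0 1 * (wA * wB)⁻¹ = wA * (wB * o2 σ 0 1 * wB⁻¹) * wA⁻¹ by group, wB_o2, wA_o6]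

theorem sq_pair {a t2 v2 c t4 v4 e t6 v6 y t8 v8 : K} (ha : a ≠ 0)
    (h : N σ a t2 v2 c t4 v4 e t6 v6 y t8 v8 * N σ a t2 v2 c t4 v4 e t6 v6 y t8 v8 = 1) :
    t8 = 0 ∧ v8 = 0 := by
  f4_coords_at h
  obtain ⟨e24, e25, e26, e27, e28, e29, e30, e31, e32, e33, e34, e35, e36, e37, e38, e39, e40, e41, e42, e43, e44, e45, e46, e47⟩ := h
  obtain rfl : t8 = 0 := (mul_eq_zero.1 (show a * t8 = 0 by grind)).resolve_left ha
  simp only [map_zero] at e31
  exact ⟨rfl, (mul_eq_zero.1 (show a * v8 = 0 by grind)).resolve_left ha⟩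

theorem sq_pair' {a v2 c v4 e t6 v6 y : K} (ha : a ≠ 0)
    (h : N σ a 0 v2 c 0 v4 e t6 v6 y 0 0 * N σ a 0 v2 c 0 v4 e t6 v6 y 0 0 = 1) :
    t6 = 0 ∧ v6 = 0 ∧ y = 0 := by
  f4_coords_at h
  obtain ⟨e24, e25, e26, e27, e28, e29, e30, e31, e32, e33, e34, e35, e36, e37, e38, e39, e40, e41, e42, e43, e44, e45, e46, e47⟩ := h
  obtain rfl : t6 = 0 := (map_eq_zero σ).1 ((mul_eq_zero.1 (show σ t6 * a = 0 by grind)).resolve_right ha)
  simp only [map_zero] at e38 e47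
  obtain rfl : y = 0 := (map_eq_zero σ).1 ((mul_eq_zero.1 (show σ y * a = 0 by grind)).resolve_right ha)
  exact ⟨rfl, (mul_eq_zero.1 (show v6 * a = 0 by grind)).resolve_right ha, rfl⟩

/-- The first normalisation at a pair coordinate. -/
theorem exists_conj_U {g h : GL chevF4.Idx K} (hh : h ∈ twistedF4 K (2 ^ m)) (hhU : h ∈ chevF4.posUnipotent K)
    (hg : g ∈ twistedF4 K (2 ^ m)) (hgU : g ∈ chevF4.posUnipotent K) :
    ∃ a t2 v2 c t4 v4 e t6 v6 y t8 v8, Rel m g (N σ a t2 v2 c t4 v4 e t6 v6 y t8 v8) ∧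
      h * g = N σ a t2 v2 c t4 v4 e t6 v6 y t8 v8 * h := by
  obtain ⟨a, t2, v2, c, t4, v4, e, t6, v6, y, t8, v8, eq⟩ :=
    S.exists_N (S.conj_mem hh hg) (mul_mem (mul_mem hhU hgU) (inv_mem hhU))
  exact ⟨a, t2, v2, c, t4, v4, e, t6, v6, y, t8, v8, ⟨h, hh, eq⟩, by rw [← eq, inv_mul_cancel_right]⟩

theorem o_mem_U (x t v : K) : o1 σ x ∈ chevF4.posUnipotent K ∧ o2 σ t v ∈ chevF4.posUnipotent K ∧
    o3 σ x ∈ chevF4.posUnipotent K ∧ o4 σ t v ∈ chevF4.posUnipotent K ∧ o5 σ x ∈ chevF4.posUnipotent K ∧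
    o6 σ t v ∈ chevF4.posUnipotent K ∧ o7 σ x ∈ chevF4.posUnipotent K ∧ o8 σ t v ∈ chevF4.posUnipotent K := by
  have p : ∀ r : ℕ, 24 ≤ r ∧ r < 48 → ∀ z : K, X r z ∈ chevF4.posUnipotent K := fun r h z =>
    xG_mem_rootsU (S := {r | chevF4.IsPosRoot r}) full.cert (CfsgLib.OutAut.F4Pair.isPos_iff.2 h) z
  simp only [o1, o2, o3, o4, o5, o6, o7, o8]
  refine ⟨?_, ?_, ?_, ?_, ?_, ?_, ?_, ?_⟩ <;> repeat' apply mul_mem
  all_goals exact p _ (by omega) _

theorem rel_pair {a t2 v2 c t4 v4 e t6 v6 y t8 v8 : K} (ha : a ≠ 0)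
    (h : N σ a t2 v2 c t4 v4 e t6 v6 y t8 v8 * N σ a t2 v2 c t4 v4 e t6 v6 y t8 v8 = 1) :
    Rel m (N σ a t2 v2 c t4 v4 e t6 v6 y t8 v8) (o1 σ 1) := by
  obtain ⟨rfl, rfl⟩ := sq_pair S ha h
  obtain ⟨a1, b1, B1, c1, d1, D1, e1, f1, F1, g1, h1, H1, r1, q1⟩ := exists_conj_U S (S.mem_o8 (t2 / a) 0)
    ((o_mem_U S 0 (t2 / a) 0).2.2.2.2.2.2.2) (S.N_mem a t2 v2 c t4 v4 e t6 v6 y 0 0) (N_mem_U _ _ _ _ _ _ _ _ _ _ _ _)
  f4_coords_at q1
  obtain ⟨e24, e25, e26, e27, e28, e29, e30, e31, e32, e33, e34, e35, e36, e37, e38, e39, e40, e41, e42, e43, e44, e45, e46, e47⟩ := q1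
  have hs : t2 / a * a = t2 := div_mul_cancel₀ _ ha
  obtain rfl : a1 = a := by grind
  obtain ⟨rfl, rfl⟩ := sq_pair S ha (r1.sq h)
  obtain rfl : b1 = 0 := by grind
  clear hs e24 e25 e26 e27 e28 e29 e30 e31 e32 e33 e34 e35 e36 e37 e38 e39 e40 e41 e42 e43 e44 e45 e46 e47
  obtain ⟨a2, b2, B2, c2, d2, D2, e2, f2, F2, g2, h2, H2, r2, q2⟩ := exists_conj_U S
    (S.mem_o8 0 (d1 / σ a1 ^ 2)) ((o_mem_U S 0 0 (d1 / σ a1 ^ 2)).2.2.2.2.2.2.2)
    (S.N_mem a1 0 B1 c1 d1 D1 e1 f1 F1 g1 0 0) (N_mem_U _ _ _ _ _ _ _ _ _ _ _ _)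
  f4_coords_at q2
  obtain ⟨e24, e25, e26, e27, e28, e29, e30, e31, e32, e33, e34, e35, e36, e37, e38, e39, e40, e41, e42, e43, e44, e45, e46, e47⟩ := q2
  have hu : d1 / σ a1 ^ 2 * σ a1 ^ 2 = d1 := div_mul_cancel₀ _ (pow_ne_zero _ ((map_ne_zero σ).2 ha))
  obtain rfl : a2 = a1 := by grind
  have r12 := r1.trans r2
  obtain ⟨rfl, rfl⟩ := sq_pair S ha (r12.sq h)
  obtain rfl : b2 = 0 := by grind
  obtain rfl : d2 = 0 := by grind
  obtain ⟨rfl, rfl, rfl⟩ := sq_pair' S ha (r12.sq h)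
  refine r12.trans ?_
  clear hu e24 e25 e26 e27 e28 e29 e30 e31 e32 e33 e34 e35 e36 e37 e38 e39 e40 e41 e42 e43 e44 e45 e46 e47 r1 r2 r12 h
  -- kill `e2`
  set x := σ (e2 / a2) with hx
  have hx1 : σ x ^ 2 * a2 = e2 := by rw [hx, S.twice, div_mul_cancel₀ _ ha]
  have hx2 : x * σ a2 = σ e2 := by rw [hx, ← map_mul, div_mul_cancel₀ _ ha]
  refine Rel.trans (y := N σ a2 0 B2 (c2 + σ a2 ^ 2 * x) 0 (D2 + B2 * x) 0 0 0 0 0 0)
    (rel_of_eq (S.orbit_mem x 0 0).2.2.2.2.2 ?_) ?_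
  · f4_eq <;> (try simp only [map_add, map_mul, map_pow, S.twice]) <;> grind
  generalize c2 + σ a2 ^ 2 * x = c3
  generalize D2 + B2 * x = D3
  clear hx1 hx2 hx
  -- kill the third orbit
  set z := σ (c3 / a2) with hz
  have hz1 : σ z ^ 2 * a2 = c3 := by rw [hz, S.twice, div_mul_cancel₀ _ ha]
  have hz2 : z * σ a2 = σ c3 := by rw [hz, ← map_mul, div_mul_cancel₀ _ ha]
  refine Rel.trans (y := N σ a2 0 (B2 + σ a2 ^ 2 * z) 0 0 (D3 + c3 * z) 0 0 0 0 0 0)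
    (rel_of_eq (S.orbit_mem 0 z 0).2.2.2.2.1 ?_) ?_
  · f4_eq <;> (try simp only [map_add, map_mul, map_pow, S.twice]) <;> grind
  generalize B2 + σ a2 ^ 2 * z = B4
  generalize D3 + c3 * z = D4
  clear hz1 hz2 hz
  -- kill the centre of the second orbit
  have hB : B4 / a2 * a2 = B4 := div_mul_cancel₀ _ ha
  have hB' : σ (B4 / a2) * σ a2 = σ B4 := by rw [← map_mul, hB]
  refine Rel.trans (y := N σ a2 0 0 0 0 D4 0 0 0 0 0 0) (rel_of_eq (S.orbit_mem 0 (B4 / a2) 0).2.2.1 ?_) ?_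
  · f4_eq <;> (try simp only [map_add, map_mul, map_pow, S.twice]) <;> grind
  have hD : D4 / a2 * a2 = D4 := div_mul_cancel₀ _ ha
  have hD' : σ (D4 / a2) * σ a2 = σ D4 := by rw [← map_mul, hD]
  refine Rel.trans (y := N σ a2 0 0 0 0 0 0 0 0 0 0 0) (rel_of_eq (S.orbit_mem 0 0 (D4 / a2)).2.2.2.2.1 ?_) ?_
  · f4_eq <;> (try simp only [map_add, map_mul, map_pow, S.twice]) <;> grind
  · o_trim
    exact rel_scale_pair S ha

theorem sq_centre {t2 v2 c t4 v4 e t6 v6 y t8 v8 : K} (hne : t8 ≠ 0 ∨ v8 ≠ 0)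
    (h : N σ 0 t2 v2 c t4 v4 e t6 v6 y t8 v8 * N σ 0 t2 v2 c t4 v4 e t6 v6 y t8 v8 = 1) :
    t8 = 0 ∧ v8 ≠ 0 ∧ t2 = 0 ∧ v2 * v8 = t4 * t6 := by
  f4_coords_at h
  obtain ⟨e24, e25, e26, e27, e28, e29, e30, e31, e32, e33, e34, e35, e36, e37, e38, e39, e40, e41, e42, e43, e44, e45, e46, e47⟩ := h
  have h8 : σ t8 ^ 2 * t8 = 0 := by grind
  obtain rfl : t8 = 0 := by
    rcases mul_eq_zero.1 h8 with h | h
    · exact (map_eq_zero σ).1 (pow_eq_zero_iff two_ne_zero |>.1 h)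
    · exact h
  have hv : v8 ≠ 0 := hne.resolve_left (not_not_intro rfl)
  simp only [map_zero] at e32 e45
  obtain rfl : t2 = 0 := (mul_eq_zero.1 (show v8 * t2 = 0 by grind)).resolve_left hv
  simp only [map_zero] at e45
  exact ⟨rfl, hv, rfl, by grind⟩

theorem sq_centre' {c t4 v4 e t6 v6 y v8 : K} (hv : v8 ≠ 0)
    (h : N σ 0 0 0 c t4 v4 e t6 v6 y 0 v8 * N σ 0 0 0 c t4 v4 e t6 v6 y 0 v8 = 1) :
    c = 0 ∧ t4 = 0 ∧ t6 = 0 := by
  f4_coords_at h
  obtain ⟨e24, e25, e26, e27, e28, e29, e30, e31, e32, e33, e34, e35, e36, e37, e38, e39, e40, e41, e42, e43, e44, e45, e46, e47⟩ := h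
  have h45 : t4 * t6 = 0 := by grind
  have h47 : σ t4 ^ 2 * t4 + c * t6 = 0 := by grind
  have h44 : σ c * σ t6 + σ t4 * t4 = 0 := by grind
  have h46 : v8 * c + σ t6 ^ 2 * t6 + t4 * y = 0 := by grind
  have hd : t4 = 0 := by
    by_contra hd
    rw [(mul_eq_zero.1 h45).resolve_left hd, map_zero, mul_zero, zero_add] at h44
    rcases mul_eq_zero.1 h44 with h | h
    · exact hd ((map_eq_zero σ).1 h)
    · exact hd h
  subst hd
  simp only [map_zero, mul_zero, zero_mul, zero_add, add_zero, zero_pow two_ne_zero] at h47 h46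
  rcases mul_eq_zero.1 h47 with rfl | rfl
  · simp only [mul_zero, zero_add] at h46
    rcases mul_eq_zero.1 h46 with h | h
    · exact ⟨rfl, rfl, (map_eq_zero σ).1 (pow_eq_zero_iff two_ne_zero |>.1 h)⟩
    · exact ⟨rfl, rfl, h⟩
  · simp only [mul_zero, add_zero] at h46
    exact ⟨(mul_eq_zero.1 h46).resolve_left hv, rfl, rfl⟩

/-- An involution with non-trivial eighth orbit and trivial first one. -/
theorem rel_centre {t2 v2 c t4 v4 e t6 v6 y t8 v8 : K} (hne : t8 ≠ 0 ∨ v8 ≠ 0)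
    (h : N σ 0 t2 v2 c t4 v4 e t6 v6 y t8 v8 * N σ 0 t2 v2 c t4 v4 e t6 v6 y t8 v8 = 1) :
    Rel m (N σ 0 t2 v2 c t4 v4 e t6 v6 y t8 v8) (o1 σ 1) ∨
      Rel m (N σ 0 t2 v2 c t4 v4 e t6 v6 y t8 v8) (o4 σ 0 1) := by
  obtain ⟨rfl, hv, rfl, hB⟩ := sq_centre S hne h
  obtain ⟨a1, b1, B1, c1, d1, D1, e1, f1, F1, g1, h1, H1, r1, q1⟩ := exists_conj_U S (S.mem_pair (t6 / v8)).1
    ((o_mem_U S (t6 / v8) 0 0).1) (S.N_mem 0 0 v2 c t4 v4 e t6 v6 y 0 v8) (N_mem_U _ _ _ _ _ _ _ _ _ _ _ _)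
  f4_coords_at q1
  obtain ⟨e24, e25, e26, e27, e28, e29, e30, e31, e32, e33, e34, e35, e36, e37, e38, e39, e40, e41, e42, e43, e44, e45, e46, e47⟩ := q1
  have hx : t6 / v8 * v8 = t6 := div_mul_cancel₀ _ hv
  obtain rfl : a1 = 0 := by grind
  obtain rfl : h1 = 0 := by grind
  simp only [map_zero] at *
  obtain rfl : H1 = v8 := by grind
  obtain rfl : b1 = 0 := by grind
  simp only [map_zero] at *
  obtain rfl : B1 = 0 := by grind
  clear hx hB e24 e25 e26 e27 e28 e29 e30 e31 e32 e33 e34 e35 e36 e37 e38 e39 e40 e41 e42 e43 e44 e45 e46 e47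
  obtain ⟨rfl, rfl, rfl⟩ := sq_centre' S hv (r1.sq h)
  suffices hs : Rel m (N σ 0 0 0 0 0 D1 e1 0 F1 g1 0 H1) (o1 σ 1) ∨
      Rel m (N σ 0 0 0 0 0 D1 e1 0 F1 g1 0 H1) (o4 σ 0 1) from hs.imp r1.trans r1.trans
  have hsq := r1.sq h
  clear r1 h
  set x := g1 / H1 with hx
  have hx1 : x * H1 = g1 := div_mul_cancel₀ _ hv
  have hx2 : σ x * σ H1 = σ g1 := by rw [← map_mul, hx1]
  have s1 : Rel m (N σ 0 0 0 0 0 D1 e1 0 F1 g1 0 H1)
      (N σ 0 0 0 0 0 (D1 + H1 * σ x ^ 2 * x ^ 2 + e1 * x) e1 0 (F1 + σ g1 ^ 2 * x) 0 0 H1) :=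
    rel_of_eq (S.orbit_mem 0 x 0).1 (by f4_eq <;> (try simp only [map_add, map_mul, map_pow, S.twice]) <;> grind)
  generalize D1 + H1 * σ x ^ 2 * x ^ 2 + e1 * x = D2 at s1
  generalize F1 + σ g1 ^ 2 * x = F2 at s1
  set z := e1 / H1 with hz
  have hz1 : z * H1 = e1 := div_mul_cancel₀ _ hv
  have hz2 : σ z * σ H1 = σ e1 := by rw [← map_mul, hz1]
  have s2 : Rel m (N σ 0 0 0 0 0 D2 e1 0 F2 0 0 H1)
      (N σ 0 0 0 0 0 (D2 + H1 * σ z ^ 2) 0 0 (F2 + σ H1 ^ 2 * z) 0 0 H1) :=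
    rel_of_eq (S.orbit_mem 0 0 z).1 (by f4_eq <;> (try simp only [map_add, map_mul, map_pow, S.twice]) <;> grind)
  generalize D2 + H1 * σ z ^ 2 = D3 at s2
  generalize F2 + σ H1 ^ 2 * z = F3 at s2
  set w := F3 / H1 with hw
  have hw1 : w * H1 = F3 := div_mul_cancel₀ _ hv
  have hw2 : σ w * σ H1 = σ F3 := by rw [← map_mul, hw1]
  have s3 : Rel m (N σ 0 0 0 0 0 D3 0 0 F3 0 0 H1) (N σ 0 0 0 0 0 D3 0 0 0 0 0 H1) :=
    rel_of_eq (S.orbit_mem w 0 0).2.1 (by f4_eq <;> (try simp only [map_add, map_mul, map_pow, S.twice]) <;> grind)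
  have s := (s1.trans s2).trans s3
  by_cases hD : D3 = 0
  · subst hD
    refine Or.inr (s.trans ?_)
    o_trim
    exact rel_scale_centre S hv
  · left
    obtain ⟨w0, hw0⟩ : ∃ w0 : K, w0 ^ 2 = D3 / H1 := by
      have := S.finite
      exact ⟨(frobeniusEquiv K 2).symm _, frobeniusEquiv_symm_pow_p (R := K) (p := 2) _⟩
    obtain ⟨x', hx'⟩ := exists_mul_sigma S w0
    have hD3 : H1 * σ x' ^ 2 * x' ^ 2 = D3 := by
      rw [mul_assoc, ← mul_pow, hx', hw0, mul_div_cancel₀ _ hv]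
    have hx0 : x' ≠ 0 := by
      rintro rfl
      simp at hD3
      exact hD hD3.symm
    set y' := H1 * x' with hy'
    set z' := σ y' ^ 2 * x' / H1 with hz'
    have hz'1 : z' * H1 = σ y' ^ 2 * x' := div_mul_cancel₀ _ hv
    have hz'2 : σ z' * σ H1 = y' * σ x' := by
      rw [← map_mul, hz'1, map_mul, map_pow, S.twice]
    have back : Rel m (N σ 0 0 0 0 0 0 0 0 0 y' 0 H1) (N σ 0 0 0 0 0 D3 0 0 0 0 0 H1) := by
      refine rel_of_eq (mul_mem (S.orbit_mem 0 x' 0).1 (S.orbit_mem z' 0 0).2.1) ?_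
      have hD3' : σ D3 = σ H1 * x' * σ x' ^ 2 := by
        rw [← hD3]; simp only [map_mul, map_pow, S.twice]
      have hy2 : σ y' = σ H1 * σ x' := by rw [hy', map_mul]
      f4_eq <;> (try simp only [map_add, map_mul, map_pow, S.twice]) <;> grind
    refine s.trans (back.symm.trans ?_)
    have rot : Rel m (N σ 0 0 0 0 0 0 0 0 0 y' 0 H1) (N σ y' 0 H1 0 0 0 0 0 0 0 0 0) := by
      refine ⟨wB * wA * wB * wA * wB * wA,
        mul_mem (mul_mem (mul_mem (mul_mem (mul_mem S.wB_mem S.wA_mem) S.wB_mem) S.wA_mem) S.wB_mem) S.wA_mem, ?_⟩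
      o_trim
      rw [show ∀ x : GL chevF4.Idx K, wB * wA * wB * wA * wB * wA * x * (wB * wA * wB * wA * wB * wA)⁻¹ =
        wB * (wA * (wB * (wA * (wB * (wA * x * wA⁻¹) * wB⁻¹) * wA⁻¹) * wB⁻¹) * wA⁻¹) * wB⁻¹ from fun x => by group]
      simp only [conj_mul', wA_o7, wA_o8, wB_o3, wB_o2, wA_o5, wA_o6, wB_o5, wB_o4, wA_o3, wA_o4, wB_o7, wB_o6]
    refine rot.trans (rel_pair S (mul_ne_zero hv hx0) (rot.sq ?_))
    refine (back.symm).sq ?_
    exact s.sq hsq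

end CfsgLib.ReeFourInvolutions
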