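import Cfsg.Agent.Lib.ReeFourInvolutions.Main

/-!
Counting the classes of involutions of `²F₄(q)` and of the Tits group.
-/

set_option autoImplicit false
set_option linter.unusedSectionVars false
set_option linter.unusedSimpArgs false
set_option linter.unreachableTactic false
set_option linter.unusedTactic false
set_option maxRecDepth 20000
set_option maxHeartbeats 1000000

namespace CfsgLib.ReeFourInvolutions

open Cfsg.Lie CfsgLib.Chevalley CfsgLib.Twisted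
open CfsgLib.OutAut.F4Pair (full X)
open scoped commutatorElement

section count

variable {K : Type*} [Field K] [CharP K 2] {σ : K →+* K} {m : ℕ} (S : Setting σ m)

include S

theorem reps_mem : o1 σ 1 ∈ twistedF4 K (2 ^ m) ∧ o4 σ 0 1 ∈ twistedF4 K (2 ^ m) :=
  ⟨(S.mem_pair 1).1, (S.orbit_mem 0 0 1).2.2.1⟩

theorem reps_involution : (o1 σ 1 * o1 σ 1 = 1 ∧ o1 σ 1 ≠ 1) ∧ (o4 σ 0 1 * o4 σ 0 1 = 1 ∧ o4 σ 0 1 ≠ 1) := by
  refine ⟨⟨?_, fun h => ?_⟩, ⟨?_, fun h => ?_⟩⟩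
  · f4_eq <;> grind
  · have h' : N σ 1 0 0 0 0 0 0 0 0 0 0 0 = N σ 0 0 0 0 0 0 0 0 0 0 0 0 := by o_trim; exact h
    exact one_ne_zero (N_inj h').1
  · f4_eq <;> grind
  · have h' : N σ 0 0 0 0 0 1 0 0 0 0 0 0 = N σ 0 0 0 0 0 0 0 0 0 0 0 0 := by o_trim; exact h
    exact one_ne_zero (N_inj h').2.2.2.2.2.1

theorem two_of_mem {g : GL chevF4.Idx K} (hg : g ∈ twistedF4 K (2 ^ m)) (h2 : g * g = 1) (h1 : g ≠ 1) :
    Two σ m g := by
  obtain ⟨x, hx, hxU⟩ := S.exists_conj hg h2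
  have r : Rel m g (x * g * x⁻¹) := ⟨x, hx, rfl⟩
  exact Two.of_rel S r (two_of_involution S (S.conj_mem hx hg) hxU (r.sq h2) (by rwa [Ne, conj_eq_one_iff]))

/-- Two classes of involutions in any subgroup containing all involutions in which conjugacy is conjugacy in
`²F₄(q)`. -/
theorem ncard_classes {H : Type*} [Group H] (ι : H →* GL chevF4.Idx K) (hι : Function.Injective ι)
    (hmem : ∀ h, ι h ∈ twistedF4 K (2 ^ m))
    (hreps : (∃ a, ι a = o1 σ 1) ∧ ∃ b, ι b = o4 σ 0 1)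
    (hrel : ∀ g a : H, (ι a = o1 σ 1 ∨ ι a = o4 σ 0 1) → Rel m (ι g) (ι a) → IsConj g a) :
    (ConjClasses.mk '' {g : H | orderOf g = 2}).ncard = 2 := by
  classical
  obtain ⟨⟨a, ha⟩, b, hb⟩ := hreps
  have hord : ∀ g : H, orderOf g = 2 ↔ ι g * ι g = 1 ∧ ι g ≠ 1 := by
    intro g
    rw [orderOf_eq_prime_iff (hp := ⟨Nat.prime_two⟩), pow_two, ← map_mul]
    exact and_congr (hι.eq_iff' (map_one ι)).symm (not_congr (hι.eq_iff' (map_one ι)).symm)
  have hne : ConjClasses.mk a ≠ ConjClasses.mk b := by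
    intro h
    rw [ConjClasses.mk_eq_mk_iff_isConj, isConj_iff] at h
    obtain ⟨c, hc⟩ := h
    refine not_rel S (Rel.symm ⟨ι c, hmem c, ?_⟩)
    rw [← ha, ← hb, ← hc, map_mul, map_mul, map_inv]
  suffices h : ConjClasses.mk '' {g : H | orderOf g = 2} = {ConjClasses.mk a, ConjClasses.mk b} by
    rw [h, Set.ncard_pair hne]
  apply Set.Subset.antisymm
  · rintro _ ⟨g, hg, rfl⟩
    obtain ⟨g2, g1⟩ := (hord g).1 hg
    rcases two_of_mem S (hmem g) g2 g1 with r | r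
    · exact Or.inl (ConjClasses.mk_eq_mk_iff_isConj.2 (hrel g a (Or.inl ha) (ha ▸ r)))
    · exact Or.inr (ConjClasses.mk_eq_mk_iff_isConj.2 (hrel g b (Or.inr hb) (hb ▸ r)))
  · rintro _ (rfl | rfl)
    · exact ⟨a, (hord a).2 (ha ▸ (reps_involution S).1), rfl⟩
    · exact ⟨b, (hord b).2 (hb ▸ (reps_involution S).2), rfl⟩

theorem ncard_twistedF4 :
    (ConjClasses.mk '' {g : ↥(twistedF4 K (2 ^ m)) | orderOf g = 2}).ncard = 2 := by
  refine ncard_classes S (twistedF4 K (2 ^ m)).subtype (Subgroup.subtype_injective _) (fun h => h.2)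
    ⟨⟨⟨_, (reps_mem S).1⟩, rfl⟩, ⟨⟨_, (reps_mem S).2⟩, rfl⟩⟩ ?_
  rintro g a - ⟨c, hc, e⟩
  exact isConj_iff.2 ⟨⟨c, hc⟩, Subtype.ext e⟩

end count

section roots

/-- The root permutation of `wA * wB`. -/
@[irreducible] def stepRoot (r : ℕ) : ℕ :=
  let r' := chevF4.reflectRoot 1 (chevF4.reflectRoot 2 (chevF4.reflectRoot 1 (chevF4.reflectRoot 2 r)))
  chevF4.reflectRoot 0 (chevF4.reflectRoot 3 r')

unseal stepRoot in
theorem step_ok : ∀ r : Fin 48, chevF4.reflectRoot 2 r < 48 ∧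
    chevF4.reflectRoot 1 (chevF4.reflectRoot 2 r) < 48 ∧
    chevF4.reflectRoot 2 (chevF4.reflectRoot 1 (chevF4.reflectRoot 2 r)) < 48 ∧
    chevF4.reflectRoot 1 (chevF4.reflectRoot 2 (chevF4.reflectRoot 1 (chevF4.reflectRoot 2 r))) < 48 ∧
    chevF4.reflectRoot 3 (chevF4.reflectRoot 1 (chevF4.reflectRoot 2 (chevF4.reflectRoot 1
      (chevF4.reflectRoot 2 r)))) < 48 ∧ stepRoot r < 48 := by
  decide +kernel

theorem step_lt {r : ℕ} (hr : r < 48) : stepRoot r < 48 := (step_ok ⟨r, hr⟩).2.2.2.2.2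

unseal stepRoot in
theorem step_longest : stepRoot (stepRoot (stepRoot (stepRoot 27))) = 20 ∧
    stepRoot (stepRoot (stepRoot (stepRoot 25))) = 22 ∧ stepRoot (stepRoot (stepRoot (stepRoot 28))) = 19 ∧
    stepRoot (stepRoot (stepRoot (stepRoot 30))) = 17 := by
  decide +kernel

variable {K : Type*} [Field K] [CharP K 2]

theorem move_mul {n n' x y z : GL chevF4.Idx K} (h : n * x * n⁻¹ = y) (h' : n' * y * n'⁻¹ = z) :
    n' * n * x * (n' * n)⁻¹ = z := by
  rw [← h', ← h]; group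

theorem step_move {r : ℕ} (hr : r < 48) (t : K) :
    wA * wB * X r t * (wA * wB)⁻¹ = X (stepRoot r) t := by
  obtain ⟨h1, h2, h3, h4, h5, -⟩ := step_ok ⟨r, hr⟩
  refine move_mul (wB_move ⟨hr, h1, h2, h3, rfl⟩ t) (wA_move ⟨h4, h5, ?_⟩ t)
  rw [stepRoot]

theorem longest_move {r r' : ℕ} (hr : r < 48) (h : stepRoot (stepRoot (stepRoot (stepRoot r))) = r') (t : K) :
    (wA * wB) * ((wA * wB) * ((wA * wB) * (wA * wB))) * X r t *
      ((wA * wB) * ((wA * wB) * ((wA * wB) * (wA * wB))))⁻¹ = X r' t := by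
  subst h
  have a1 := step_move hr t
  have a2 := step_move (step_lt hr) t
  have a3 := step_move (step_lt (step_lt hr)) t
  have a4 := step_move (step_lt (step_lt (step_lt hr))) t
  generalize (wA * wB : GL chevF4.Idx K) = w at a1 a2 a3 a4 ⊢
  exact move_mul (move_mul (move_mul a1 a2) a3) a4

end roots

section tits

variable {K : Type*} [Field K] [CharP K 2] {σ : K →+* K} {m : ℕ} (S : Setting σ m)
  (htwo : ∀ x : K, x = 0 ∨ x = 1)
  (hcomm : ∀ g : ↥(twistedF4 K (2 ^ m)), orderOf g = 2 → g ∈ commutator ↥(twistedF4 K (2 ^ m)))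

include S

theorem y_mem : o2 σ 1 0 ∈ twistedF4 K (2 ^ m) := (S.orbit_mem 0 1 0).1

include hcomm

theorem invol_mem {x : GL chevF4.Idx K} (hx : x ∈ twistedF4 K (2 ^ m)) (hxx : x * x = 1) :
    (⟨x, hx⟩ : ↥(twistedF4 K (2 ^ m))) ∈ commutator ↥(twistedF4 K (2 ^ m)) := by
  by_cases h1 : (⟨x, hx⟩ : ↥(twistedF4 K (2 ^ m))) = 1
  · rw [h1]; exact one_mem _
  · exact hcomm _ (orderOf_eq_prime (p := 2) (hp := ⟨Nat.prime_two⟩)
      (Subtype.ext (by simpa [pow_two] using hxx)) h1)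

omit hcomm in
theorem o8_split (t v : K) : o8 σ t v = o8 σ t 0 * o8 σ 0 v := by
  simp only [o8, map_zero, add_zero, mul_zero, zero_add, xG_zero, mul_one, one_mul, mul_assoc]
  rw [← mul_assoc (X 28 (σ t * t)) (X 28 (σ v)), xG_mul]

omit hcomm in
theorem o8_sq (v : K) : o8 σ 0 v * o8 σ 0 v = 1 := by
  f4_eq <;> grind

omit hcomm in
theorem o1_sq (t : K) : o1 σ t * o1 σ t = 1 := by
  f4_eq <;> grind

omit hcomm in
theorem y_comm : o2 σ 1 0 * o1 σ 1 = o1 σ 1 * o2 σ 1 0 := by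
  f4_eq <;> grind

include htwo

/-- `²F₄(2)` is generated by its derived subgroup and `o2 1 0`. -/
theorem sup_eq_top :
    commutator ↥(twistedF4 K (2 ^ m)) ⊔
      Subgroup.zpowers (⟨_, y_mem S⟩ : ↥(twistedF4 K (2 ^ m))) = ⊤ := by
  set H := commutator ↥(twistedF4 K (2 ^ m)) ⊔
      Subgroup.zpowers (⟨_, y_mem S⟩ : ↥(twistedF4 K (2 ^ m))) with hH
  let L : Subgroup (GL chevF4.Idx K) := H.map (twistedF4 K (2 ^ m)).subtype
  have hinvol : ∀ x, x ∈ twistedF4 K (2 ^ m) → x * x = 1 → x ∈ L := fun x hx hxx =>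
    ⟨⟨x, hx⟩, Subgroup.mem_sup_left (invol_mem S hcomm hx hxx), rfl⟩
  have hconj : ∀ n x : GL chevF4.Idx K, n ∈ twistedF4 K (2 ^ m) → x ∈ L → n * x * n⁻¹ ∈ L := by
    rintro n _ hn ⟨z, hz, rfl⟩
    refine ⟨⁅(⟨n, hn⟩ : ↥(twistedF4 K (2 ^ m))), z⁆ * z, mul_mem (Subgroup.mem_sup_left
      (Subgroup.commutator_mem_commutator (Subgroup.mem_top _) (Subgroup.mem_top _))) hz, ?_⟩
    simp [commutatorElement_def]
  have h80 : ∀ t v : K, o8 σ t v ∈ L := by
    have hy : o8 σ 1 0 ∈ L := by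
      rw [← wA_o2 σ 1 0]
      exact hconj _ _ S.wA_mem ⟨⟨_, y_mem S⟩, Subgroup.mem_sup_right (Subgroup.mem_zpowers _), rfl⟩
    have hz : ∀ v : K, o8 σ 0 v ∈ L := fun v => hinvol _ (S.mem_o8 0 v) (o8_sq S v)
    intro t v
    rw [o8_split S]
    refine mul_mem ?_ (hz v)
    rcases htwo t with rfl | rfl
    · exact hz 0
    · exact hy
  have hneg : ∀ t v : K, X 20 (σ t) * X 22 t * X 19 (σ t * t + σ v) * X 17 v ∈ L := by
    intro t v
    have hw : wA * wB ∈ twistedF4 K (2 ^ m) := mul_mem S.wA_mem S.wB_mem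
    have h := hconj _ _ (mul_mem hw (mul_mem hw (mul_mem hw hw))) (h80 t v)
    rw [o8, conj_mul', conj_mul', conj_mul', longest_move (by omega) step_longest.1,
      longest_move (by omega) step_longest.2.1, longest_move (by omega) step_longest.2.2.1,
      longest_move (by omega) step_longest.2.2.2] at h
    exact h
  have hle : twistedF4 K (2 ^ m) ≤ L := by
    refine (Subgroup.closure_le _).2 ?_
    rintro g ⟨w, hw, hg⟩
    obtain rfl : g = wordG full.cert w := Units.ext (by rw [coe_wordG, hg])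
    have hpow : ∀ x : K, x ^ (2 ^ m) = σ x := fun x => (S.pow x).symm
    have hsq : ∀ x : K, x ^ 2 = x := fun x => by rcases htwo x with rfl | rfl <;> simp
    have hid : ∀ x : K, σ x = x := fun x => by rcases htwo x with rfl | rfl <;> simp
    have hsq2 : ∀ x : K, x ^ (2 * 2 ^ m) = x := fun x => by
      rcases htwo x with rfl | rfl <;> simp
    rcases hw with ⟨t, rfl | rfl⟩ | ⟨t, u, rfl | rfl⟩
    · refine hinvol _ (wordG_mem_gen _ (Or.inl ⟨t, Or.inl rfl⟩)) ?_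
      simp only [f4PairWord, wordG_cons, wordG_nil, mul_one, f4p1, f4p4, hpow]
      exact o1_sq S t
    · refine hinvol _ (wordG_mem_gen _ (Or.inl ⟨t, Or.inr rfl⟩)) ?_
      simp only [f4PairWord, wordG_cons, wordG_nil, mul_one, f4m1, f4m4, hpow]
      have hc : Commute (X 14 (σ t)) (X 23 t) := commute_X (K := K) (r := 14) (s := 23) (by decide) (by decide) (by decide) (by decide) rfl (σ t) t
      rw [hc.symm.mul_mul_mul_comm, xG_mul, xG_mul, CharTwo.add_self_eq_zero, CharTwo.add_self_eq_zero, xG_zero,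
        xG_zero, one_mul]
    · have h := h80 t u
      simp only [b2ClassWord, wordG_cons, wordG_nil, mul_one, f4a, f4b, f4ab, f4aab]
      rw [o8, mul_assoc, mul_assoc] at h
      simpa [hpow, hid, hsq, hsq2, sq, pow_succ] using h
    · have h := hneg t u
      simp only [b2ClassWord, wordG_cons, wordG_nil, mul_one, f4ma, f4mb, f4mab, f4maab]
      rw [mul_assoc, mul_assoc] at h
      simpa [hpow, hid, hsq, hsq2, sq, pow_succ] using h
  refine eq_top_iff.2 fun x _ => ?_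
  obtain ⟨z, hz, e⟩ := hle x.2
  exact (Subtype.ext e : z = x) ▸ hz

theorem ncard_derived :
    (ConjClasses.mk '' {g : ↥(commutator ↥(twistedF4 K (2 ^ m))) | orderOf g = 2}).ncard = 2 := by
  refine ncard_classes S ((twistedF4 K (2 ^ m)).subtype.comp (commutator ↥(twistedF4 K (2 ^ m))).subtype)
    ((Subgroup.subtype_injective _).comp (Subgroup.subtype_injective _))
    (fun h => (h : ↥(twistedF4 K (2 ^ m))).2)
    ⟨⟨⟨⟨_, (reps_mem S).1⟩, invol_mem S hcomm _ (reps_involution S).1.1⟩, rfl⟩,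
      ⟨⟨⟨_, (reps_mem S).2⟩, invol_mem S hcomm _ (reps_involution S).2.1⟩, rfl⟩⟩ ?_
  rintro g a ha ⟨c, hc, e⟩
  have hy : Commute (o2 σ 1 0) ((a : ↥(twistedF4 K (2 ^ m))) : GL chevF4.Idx K) := by
    rcases ha with h | h <;> rw [show ((a : ↥(twistedF4 K (2 ^ m))) : GL chevF4.Idx K) = _ from h]
    · exact y_comm S
    · exact (centre_commute S (o_mem_U S 0 1 0).2.1).symm
  have hc' : (⟨c, hc⟩ : ↥(twistedF4 K (2 ^ m))) ∈
      Subgroup.zpowers (⟨_, y_mem S⟩ : ↥(twistedF4 K (2 ^ m))) ⊔ commutator ↥(twistedF4 K (2 ^ m)) := by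
    rw [sup_comm, sup_eq_top S htwo hcomm]; trivial
  obtain ⟨z, hz, t, ht, hzt⟩ := Subgroup.mem_sup_of_normal_right.1 hc'
  obtain ⟨k, rfl⟩ := Subgroup.mem_zpowers_iff.1 hz
  refine isConj_iff.2 ⟨⟨t, ht⟩, Subtype.ext (Subtype.ext ?_)⟩
  have hk : Commute (o2 σ 1 0 ^ k) ((a : ↥(twistedF4 K (2 ^ m))) : GL chevF4.Idx K) := hy.zpow_left k
  have e' : c = o2 σ 1 0 ^ k * (t : GL chevF4.Idx K) := by
    have := congrArg Subtype.val hzt
    simpa using this.symm
  have e2 : c * ((g : ↥(twistedF4 K (2 ^ m))) : GL chevF4.Idx K) * c⁻¹ =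
      ((a : ↥(twistedF4 K (2 ^ m))) : GL chevF4.Idx K) := e
  calc ((t : GL chevF4.Idx K)) * ((g : ↥(twistedF4 K (2 ^ m))) : GL chevF4.Idx K) * (t : GL chevF4.Idx K)⁻¹
      = (o2 σ 1 0 ^ k)⁻¹ * (c * ((g : ↥(twistedF4 K (2 ^ m))) : GL chevF4.Idx K) * c⁻¹) * o2 σ 1 0 ^ k := by
        rw [e']; group
    _ = _ := by rw [e2, mul_assoc, ← hk.eq, inv_mul_cancel_left]

end tits

theorem ncard_tits : (ConjClasses.mk '' {g : TitsGroup | orderOf g = 2}).ncard = 2 := by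
  have key : ∀ n, n = 1 → (∀ g : ↥(twistedF4 (ZMod 2) n), orderOf g = 2 → g ∈ commutator ↥(twistedF4 (ZMod 2) n)) →
      (ConjClasses.mk '' {g : ↥(commutator ↥(twistedF4 (ZMod 2) n)) | orderOf g = 2}).ncard = 2 := by
    intro n hn
    obtain rfl : n = 2 ^ 0 := by rw [hn, pow_zero]
    intro hcomm
    exact ncard_derived (σ := RingHom.id (ZMod 2)) (m := 0) ⟨by simp, fun x => by simp⟩ (by decide) hcomm
  exact key 1 rfl CfsgLib.Components2.TitsInv.involution_mem_commutator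

end CfsgLib.ReeFourInvolutions
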