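import Cfsg.Agent.Lib.ReeFourInvolutions.Inj
import Cfsg.Agent.Lib.Twisted.TwistedBN
import Cfsg.Agent.Lib.OutAut.ChevSylow

/-!
`²F₄(q)`: membership of the orbit elements, the monomial elements of the two orbits of fundamental roots, and
every involution is conjugate into `U¹`.
-/

set_option autoImplicit false
set_option linter.unusedSectionVars false
set_option linter.unusedSimpArgs false
set_option maxRecDepth 20000

namespace CfsgLib.ReeFourInvolutions

open Cfsg.Lie CfsgLib.Chevalley CfsgLib.Twisted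
open CfsgLib.OutAut.F4Pair (full X)

variable {K : Type*} [Field K] [CharP K 2] (σ : K →+* K)

theorem conj_mul' {G : Type*} [Group G] (n x y : G) : n * (x * y) * n⁻¹ = n * x * n⁻¹ * (n * y * n⁻¹) := by
  group

theorem conj_simple (i : Fin chevF4.rank) {r r' : ℕ} (hr : r < chevF4.nroots)
    (h : chevF4.reflectRoot i r = r') (t : K) :
    nG full.cert (chevF4.simple i) 1 * X r t * (nG full.cert (chevF4.simple i) 1)⁻¹ = X r' t := by
  subst h
  show nG full.cert (chevF4.simple i) 1 * X ((⟨r, hr⟩ : Fin chevF4.nroots) : ℕ) t *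
    (nG full.cert (chevF4.simple i) 1)⁻¹ = _
  rw [(acts_nG_simple (F := K) full i one_ne_zero).conj, one_zpow, mul_one]
  rcases (refl_spec full.cert i.isLt hr).1 with e | e <;> rw [e] <;> simp [CharTwo.neg_eq, rf]

theorem conj_simple_pow (i : Fin chevF4.rank) {r r' : ℕ} {k : ℤ} (hr : r < chevF4.nroots)
    (h : chevF4.reflectRoot i r = r') (hk : -chevF4.cartan i r = k) {u : K} (hu : u ≠ 0) (t : K) :
    nG full.cert (chevF4.simple i) u * X r t * (nG full.cert (chevF4.simple i) u)⁻¹ = X r' (u ^ k * t) := by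
  subst h hk
  show nG full.cert (chevF4.simple i) u * X ((⟨r, hr⟩ : Fin chevF4.nroots) : ℕ) t *
    (nG full.cert (chevF4.simple i) u)⁻¹ = _
  rw [(acts_nG_simple (F := K) full i hu).conj]
  rcases (refl_spec full.cert i.isLt hr).1 with e | e <;> rw [e] <;> simp [CharTwo.neg_eq, rf]

/-- The monomial element of the pair orbit. -/
noncomputable def wA : GL chevF4.Idx K := nG full.cert 33 1 * nG full.cert 24 1

/-- The monomial element of the orbit of type B₂. -/
noncomputable def wB : GL chevF4.Idx K :=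
  nG full.cert 27 1 * nG full.cert 25 1 * nG full.cert 27 1 * nG full.cert 25 1

theorem wA_move {r r' : ℕ} (h : r < chevF4.nroots ∧ chevF4.reflectRoot 3 r < chevF4.nroots ∧
    chevF4.reflectRoot 0 (chevF4.reflectRoot 3 r) = r') (t : K) : wA * X r t * wA⁻¹ = X r' t := by
  obtain ⟨hr, h1, h⟩ := h
  have e0 := conj_simple (K := K) ⟨0, by decide⟩ h1 h t
  have e3 := conj_simple (K := K) ⟨3, by decide⟩ hr rfl t
  rw [show chevF4.simple ((⟨0, by decide⟩ : Fin chevF4.rank) : ℕ) = 33 from rfl] at e0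
  rw [show chevF4.simple ((⟨3, by decide⟩ : Fin chevF4.rank) : ℕ) = 24 from rfl] at e3
  rw [wA, ← e0, ← e3]
  group

theorem wB_move {r r' : ℕ} (h : r < chevF4.nroots ∧ chevF4.reflectRoot 2 r < chevF4.nroots ∧
    chevF4.reflectRoot 1 (chevF4.reflectRoot 2 r) < chevF4.nroots ∧
    chevF4.reflectRoot 2 (chevF4.reflectRoot 1 (chevF4.reflectRoot 2 r)) < chevF4.nroots ∧
    chevF4.reflectRoot 1 (chevF4.reflectRoot 2 (chevF4.reflectRoot 1 (chevF4.reflectRoot 2 r))) = r') (t : K) :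
    wB * X r t * wB⁻¹ = X r' t := by
  obtain ⟨hr, h1, h2, h3, h⟩ := h
  have ea := conj_simple (K := K) ⟨2, by decide⟩ hr rfl t
  have eb := conj_simple (K := K) ⟨1, by decide⟩ h1 rfl t
  have ec := conj_simple (K := K) ⟨2, by decide⟩ h2 rfl t
  have ed := conj_simple (K := K) ⟨1, by decide⟩ h3 h t
  rw [show chevF4.simple ((⟨1, by decide⟩ : Fin chevF4.rank) : ℕ) = 27 from rfl] at eb ed
  rw [show chevF4.simple ((⟨2, by decide⟩ : Fin chevF4.rank) : ℕ) = 25 from rfl] at ea ec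
  rw [wB, ← ed, ← ec, ← eb, ← ea]
  group

theorem wA_o2 (t v : K) : wA * o2 σ t v * wA⁻¹ = o8 σ t v := by
  simp only [o2, o8, conj_mul']
  rw [wA_move (r := 34) (r' := 27) (by decide), wA_move (r := 26) (r' := 25) (by decide), wA_move (r := 36) (r' := 28) (by decide), wA_move (r := 42) (r' := 30) (by decide)]

theorem wA_o3 (c : K) : wA * o3 σ c * wA⁻¹ = o7 σ c := by
  simp only [o3, o7, conj_mul']
  rw [wA_move (r := 38) (r' := 37) (by decide), wA_move (r := 43) (r' := 32) (by decide)]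

theorem wA_o4 (t v : K) : wA * o4 σ t v * wA⁻¹ = o6 σ t v := by
  simp only [o4, o6, conj_mul']
  rw [wA_move (r := 29) (r' := 35) (by decide), wA_move (r := 41) (r' := 31) (by decide), wA_move (r := 44) (r' := 40) (by decide), wA_move (r := 47) (r' := 46) (by decide)]

theorem wA_o5 (e : K) : wA * o5 σ e * wA⁻¹ = o5 σ e := by
  simp only [o5, o5, conj_mul']
  rw [wA_move (r := 39) (r' := 39) (by decide), wA_move (r := 45) (r' := 45) (by decide)]

theorem wA_o6 (t v : K) : wA * o6 σ t v * wA⁻¹ = o4 σ t v := by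
  simp only [o6, o4, conj_mul']
  rw [wA_move (r := 35) (r' := 29) (by decide), wA_move (r := 31) (r' := 41) (by decide), wA_move (r := 40) (r' := 44) (by decide), wA_move (r := 46) (r' := 47) (by decide)]

theorem wA_o7 (y : K) : wA * o7 σ y * wA⁻¹ = o3 σ y := by
  simp only [o7, o3, conj_mul']
  rw [wA_move (r := 37) (r' := 38) (by decide), wA_move (r := 32) (r' := 43) (by decide)]

theorem wA_o8 (t v : K) : wA * o8 σ t v * wA⁻¹ = o2 σ t v := by
  simp only [o8, o2, conj_mul']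
  rw [wA_move (r := 27) (r' := 34) (by decide), wA_move (r := 25) (r' := 26) (by decide), wA_move (r := 28) (r' := 36) (by decide), wA_move (r := 30) (r' := 42) (by decide)]

theorem wB_o1 (a : K) : wB * o1 σ a * wB⁻¹ = o7 σ a := by
  simp only [o1, o7, conj_mul']
  rw [wB_move (r := 33) (r' := 37) (by decide), wB_move (r := 24) (r' := 32) (by decide)]

theorem wB_o2 (t v : K) : wB * o2 σ t v * wB⁻¹ = o6 σ t v := by
  simp only [o2, o6, conj_mul']
  rw [wB_move (r := 34) (r' := 35) (by decide), wB_move (r := 26) (r' := 31) (by decide), wB_move (r := 36) (r' := 40) (by decide), wB_move (r := 42) (r' := 46) (by decide)]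

theorem wB_o3 (c : K) : wB * o3 σ c * wB⁻¹ = o5 σ c := by
  simp only [o3, o5, conj_mul']
  rw [wB_move (r := 38) (r' := 39) (by decide), wB_move (r := 43) (r' := 45) (by decide)]

theorem wB_o4 (t v : K) : wB * o4 σ t v * wB⁻¹ = o4 σ t v := by
  simp only [o4, o4, conj_mul']
  rw [wB_move (r := 29) (r' := 29) (by decide), wB_move (r := 41) (r' := 41) (by decide), wB_move (r := 44) (r' := 44) (by decide), wB_move (r := 47) (r' := 47) (by decide)]

theorem wB_o5 (e : K) : wB * o5 σ e * wB⁻¹ = o3 σ e := by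
  simp only [o5, o3, conj_mul']
  rw [wB_move (r := 39) (r' := 38) (by decide), wB_move (r := 45) (r' := 43) (by decide)]

theorem wB_o6 (t v : K) : wB * o6 σ t v * wB⁻¹ = o2 σ t v := by
  simp only [o6, o2, conj_mul']
  rw [wB_move (r := 35) (r' := 34) (by decide), wB_move (r := 31) (r' := 26) (by decide), wB_move (r := 40) (r' := 36) (by decide), wB_move (r := 46) (r' := 42) (by decide)]

theorem wB_o7 (y : K) : wB * o7 σ y * wB⁻¹ = o1 σ y := by
  simp only [o7, o1, conj_mul']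
  rw [wB_move (r := 37) (r' := 33) (by decide), wB_move (r := 32) (r' := 24) (by decide)]

theorem commute_X {r s : ℕ} (hr : r < chevF4.nroots) (hs : s < chevF4.nroots) (hne : s ≠ r)
    (hneg : s ≠ chevF4.neg r) (h : chevF4.commTerms r s = []) (t u : K) : Commute (X r t) (X s u) := by
  have e := swap hr hs hne hneg t u 1
  simp only [h, List.map_nil, List.prod_nil, mul_one] at e
  exact e.symm

theorem pair_mul {G : Type*} [Group G] {a b c d : G} (h1 : Commute a c) (h2 : Commute b c)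
    (h3 : Commute a d) : a * b * a * (c * d * c) = a * c * (b * d) * (a * c) :=
  calc a * b * a * (c * d * c) = a * b * (a * c) * d * c := by group
    _ = a * (b * c) * (a * d) * c := by rw [h1.eq]; group
    _ = a * c * (b * d) * (a * c) := by rw [h2.eq, h3.eq]; group

/-- The monomial element with a parameter. -/
noncomputable def wT (s : K) : GL chevF4.Idx K := nG full.cert 33 (σ s) * nG full.cert 24 s

theorem wT_eq (s : K) : wT σ s = o1 σ s * (X 14 (σ s⁻¹) * X 23 s⁻¹) * o1 σ s := by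
  have c : ∀ r ∈ [33, 14], ∀ u ∈ [24, 23], ∀ x y : K, Commute (X r x) (X u y) := by
    intro r hr u hu x y
    fin_cases hr <;> fin_cases hu <;> exact commute_X (by decide) (by decide) (by decide) (by decide) rfl x y
  simp only [wT, nG, CharTwo.neg_eq, show chevF4.neg 33 = 14 from rfl, show chevF4.neg 24 = 23 from rfl,
    map_inv₀, o1]
  exact pair_mul (c 33 (by simp) 24 (by simp) _ _) (c 14 (by simp) 24 (by simp) _ _)
    (c 33 (by simp) 23 (by simp) _ _)

theorem wT_one : wT σ 1 = wA := by simp [wT, wA]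

/-- The data of `²F₄(q)`. -/
structure Setting (σ : K →+* K) (m : ℕ) : Prop where
  /-- the field -/
  card : Nat.card K = 2 ^ (2 * m + 1)
  /-- the field automorphism -/
  pow : ∀ x, σ x = x ^ 2 ^ m

variable {σ} {m : ℕ} (S : Setting σ m)

include S

theorem Setting.finite : Finite K :=
  Nat.finite_of_card_ne_zero (S.card ▸ pow_ne_zero _ two_ne_zero)

theorem Setting.twice (x : K) : σ (σ x) ^ 2 = x := by
  have := S.finite
  have : Fintype K := Fintype.ofFinite K
  rw [S.pow, S.pow, ← pow_mul, ← pow_mul, show 2 ^ m * (2 ^ m * 2) = 2 ^ (2 * m + 1) by ring,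
    ← S.card, Nat.card_eq_fintype_card, FiniteField.pow_card]

theorem Setting.mem_pair (t : K) :
    o1 σ t ∈ twistedF4 K (2 ^ m) ∧ X 14 (σ t) * X 23 t ∈ twistedF4 K (2 ^ m) := by
  have h1 := wordG_mem_gen (F := K) full.cert (S := f4Words K (2 ^ m)) (Or.inl ⟨t, Or.inl rfl⟩)
  have h2 := wordG_mem_gen (F := K) full.cert (S := f4Words K (2 ^ m)) (Or.inl ⟨t, Or.inr rfl⟩)
  simp only [f4PairWord, wordG_cons, wordG_nil, mul_one, f4p1, f4p4, f4m1, f4m4] at h1 h2
  rw [o1, S.pow]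
  exact ⟨h1, h2⟩

theorem Setting.mem_o8 (t v : K) : o8 σ t v ∈ twistedF4 K (2 ^ m) := by
  have h1 := wordG_mem_gen (F := K) full.cert (S := f4Words K (2 ^ m)) (Or.inr ⟨t, σ v, Or.inl rfl⟩)
  simp only [b2ClassWord, wordG_cons, wordG_nil, mul_one, f4a, f4b, f4ab, f4aab] at h1
  have e1 : σ v ^ (2 * 2 ^ m) = v := by
    rw [mul_comm, pow_mul, ← S.pow, S.twice]
  rw [e1] at h1
  rw [o8, mul_assoc, mul_assoc, show σ t * t = t ^ (2 ^ m + 1) by rw [S.pow, pow_succ], S.pow t]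
  exact h1

theorem Setting.wT_mem (s : K) : wT σ s ∈ twistedF4 K (2 ^ m) := by
  rw [wT_eq]
  exact mul_mem (mul_mem (S.mem_pair s).1 (S.mem_pair _).2) (S.mem_pair s).1

theorem Setting.wA_mem : (wA : GL chevF4.Idx K) ∈ twistedF4 K (2 ^ m) :=
  wT_one σ ▸ S.wT_mem 1

theorem Setting.wB_mem : (wB : GL chevF4.Idx K) ∈ twistedF4 K (2 ^ m) := by
  have h20 : ((2 : ℕ) : K) = 0 := CharP.cast_eq_zero K 2
  have h := f4Fixed_ok
  simp only [Bool.and_eq_true, List.all_eq_true, List.mem_range, decide_eq_true_eq, beq_iff_eq] at h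
  obtain ⟨⟨⟨⟨⟨⟨⟨⟨⟨⟨-, -⟩, -⟩, -⟩, -⟩, hB⟩, -⟩, -⟩, -⟩, -⟩, -⟩ := h
  have hb := hB (([1, 2, 1, 2] : List ℕ), ([[(f4ab, 1), (f4aab, 1)], [(f4ma, 1), (f4mb, 1), (f4maab, 1)],
    [(f4a, 1), (f4b, 1), (f4ab, 1)]] : List (List (ℕ × ℤ))))
    (List.mem_cons_of_mem _ (List.mem_cons_self ..))
  simp only [checkBlockF4, Bool.and_eq_true, List.all_eq_true, decide_eq_true_eq] at hb
  have e := checkWordP_eq (F := K) (t := 1) (u := 1) one_ne_zero one_ne_zero h20 hb.1 hb.2
  have e2 : (wB : GL chevF4.Idx K) = wordG full.cert ([(f4ab, (1 : K)), (f4aab, 1)] ++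
      ([(f4ma, 1), (f4mb, 1), (f4maab, 1)] ++ [(f4a, 1), (f4b, 1), (f4ab, 1)])) := by
    apply Units.ext
    simp only [List.flatMap_cons, List.flatMap_nil, List.append_nil, List.map_append, List.map_cons, List.map_nil,
      pEval_cst, wordMat_append, List.cons_append, List.nil_append, Int.cast_one, Int.cast_neg,
      List.flatten_cons, List.flatten_nil] at e
    rw [coe_wordG]
    simp only [List.cons_append, List.nil_append]
    rw [← e]
    simp [wB, nG, ChevalleyDatum.wordMat, mul_assoc, show chevF4.simple 1 = 27 from rfl,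
      show chevF4.simple 2 = 25 from rfl, CharTwo.neg_eq]
  have he : (2 : ℕ) ^ m ≠ 0 := pow_ne_zero _ two_ne_zero
  have hU := wordG_mem_gen (F := K) full.cert (S := f4Words K (2 ^ m)) (Or.inr ⟨0, 1, Or.inl rfl⟩)
  have hV := wordG_mem_gen (F := K) full.cert (S := f4Words K (2 ^ m)) (Or.inr ⟨1, 1, Or.inr rfl⟩)
  have hW := wordG_mem_gen (F := K) full.cert (S := f4Words K (2 ^ m)) (Or.inr ⟨1, 0, Or.inl rfl⟩)
  simp only [b2ClassWord, zero_pow he, zero_pow (Nat.succ_ne_zero _), zero_pow (Nat.mul_ne_zero two_ne_zero he),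
    zero_add, add_zero, CharTwo.add_self_eq_zero, one_pow, wordG_cons, wordG_nil, xG_zero, one_mul,
    mul_one] at hU hV hW
  rw [e2, wordG_append, wordG_append]
  simp only [wordG_cons, wordG_nil, mul_one]
  exact mul_mem hU (mul_mem hV hW)

theorem Setting.conj_mem {n g : GL chevF4.Idx K} (hn : n ∈ twistedF4 K (2 ^ m)) (hg : g ∈ twistedF4 K (2 ^ m)) :
    n * g * n⁻¹ ∈ twistedF4 K (2 ^ m) :=
  mul_mem (mul_mem hn hg) (inv_mem hn)

theorem Setting.orbit_mem (x t v : K) :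
    o2 σ t v ∈ twistedF4 K (2 ^ m) ∧ o3 σ x ∈ twistedF4 K (2 ^ m) ∧ o4 σ t v ∈ twistedF4 K (2 ^ m) ∧
    o5 σ x ∈ twistedF4 K (2 ^ m) ∧ o6 σ t v ∈ twistedF4 K (2 ^ m) ∧ o7 σ x ∈ twistedF4 K (2 ^ m) := by
  have h7 := S.conj_mem S.wB_mem (S.mem_pair x).1
  rw [wB_o1] at h7
  have h3 := S.conj_mem S.wA_mem h7
  rw [wA_o7] at h3
  have h5 := S.conj_mem S.wB_mem h3
  rw [wB_o3] at h5
  have h2 := S.conj_mem S.wA_mem (S.mem_o8 t v)
  rw [wA_o8] at h2
  have h6 := S.conj_mem S.wB_mem h2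
  rw [wB_o2] at h6
  have h4 := S.conj_mem S.wA_mem h6
  rw [wA_o6] at h4
  exact ⟨h2, h3, h4, h5, h6, h7⟩

theorem Setting.N_mem (a t2 v2 c t4 v4 e t6 v6 y t8 v8 : K) :
    N σ a t2 v2 c t4 v4 e t6 v6 y t8 v8 ∈ twistedF4 K (2 ^ m) := by
  obtain ⟨h2, h3, -, -, -, -⟩ := S.orbit_mem c t2 v2
  obtain ⟨-, -, h4, h5, -, -⟩ := S.orbit_mem e t4 v4
  obtain ⟨-, -, -, -, h6, h7⟩ := S.orbit_mem y t6 v6
  exact mul_mem (mul_mem (mul_mem (mul_mem (mul_mem (mul_mem (mul_mem (S.mem_pair a).1 h2) h3) h4) h5) h6) h7)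
    (S.mem_o8 t8 v8)

omit S in
theorem N_mem_U (a t2 v2 c t4 v4 e t6 v6 y t8 v8 : K) :
    N σ a t2 v2 c t4 v4 e t6 v6 y t8 v8 ∈ chevF4.posUnipotent K := by
  rw [N_eq_prodU, posUnipotent_eq, set_pos]
  exact prodU_mem _ _

omit S in
theorem N_inj {a t2 v2 c t4 v4 e t6 v6 y t8 v8 a' t2' v2' c' t4' v4' e' t6' v6' y' t8' v8' : K}
    (h : N σ a t2 v2 c t4 v4 e t6 v6 y t8 v8 = N σ a' t2' v2' c' t4' v4' e' t6' v6' y' t8' v8') :
    a = a' ∧ t2 = t2' ∧ v2 = v2' ∧ c = c' ∧ t4 = t4' ∧ v4 = v4' ∧ e = e' ∧ t6 = t6' ∧ v6 = v6' ∧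
      y = y' ∧ t8 = t8' ∧ v8 = v8' := by
  rw [N_eq_prodU, N_eq_prodU] at h
  have k := prodU_inj h
  obtain rfl : a = a' := by simpa [co] using k 24 (by simp)
  obtain rfl : t8 = t8' := by simpa [co] using k 25 (by simp)
  obtain rfl : t2 = t2' := by simpa [co] using k 26 (by simp)
  obtain rfl : v8 = v8' := by simpa [co] using k 30 (by simp)
  obtain rfl : t6 = t6' := by simpa [co] using k 31 (by simp)
  obtain rfl : y = y' := by simpa [co] using k 32 (by simp)
  obtain rfl : t4 = t4' := by simpa [co] using k 41 (by simp)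
  obtain rfl : v2 = v2' := by simpa [co] using k 42 (by simp)
  obtain rfl : c = c' := by simpa [co] using k 43 (by simp)
  obtain rfl : e = e' := by simpa [co] using k 45 (by simp)
  obtain rfl : v6 = v6' := by simpa [co] using k 46 (by simp)
  obtain rfl : v4 = v4' := by simpa [co] using k 47 (by simp)
  simp

theorem Setting.exists_N {g : GL chevF4.Idx K} (hg : g ∈ twistedF4 K (2 ^ m))
    (hu : g ∈ chevF4.posUnipotent K) :
    ∃ a t2 v2 c t4 v4 e t6 v6 y t8 v8, g = N σ a t2 v2 c t4 v4 e t6 v6 y t8 v8 := by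
  have := S.finite
  have : Fintype K := Fintype.ofFinite K
  let Φ : K × K × K × K × K × K × K × K × K × K × K × K → ↥(twistedF4 K (2 ^ m) ⊓ chevF4.posUnipotent K) :=
    fun ⟨a, t2, v2, c, t4, v4, e, t6, v6, y, t8, v8⟩ =>
      ⟨N σ a t2 v2 c t4 v4 e t6 v6 y t8 v8, S.N_mem a t2 v2 c t4 v4 e t6 v6 y t8 v8,
        N_mem_U a t2 v2 c t4 v4 e t6 v6 y t8 v8⟩
  have hinj : Function.Injective Φ := by
    rintro ⟨a, t2, v2, c, t4, v4, e, t6, v6, y, t8, v8⟩ ⟨a', t2', v2', c', t4', v4', e', t6', v6', y', t8', v8'⟩ h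
    obtain ⟨rfl, rfl, rfl, rfl, rfl, rfl, rfl, rfl, rfl, rfl, rfl, rfl⟩ := N_inj (congrArg Subtype.val h)
    rfl
  have hcard : Nat.card (K × K × K × K × K × K × K × K × K × K × K × K) =
      Nat.card ↥(twistedF4 K (2 ^ m) ⊓ chevF4.posUnipotent K) := by
    rw [card_unipotentF4 (by rw [← Nat.card_eq_fintype_card]; exact S.card)]
    simp only [Nat.card_prod, S.card]
    ring
  obtain ⟨⟨a, t2, v2, c, t4, v4, e, t6, v6, y, t8, v8⟩, hx⟩ :=
    ((Nat.bijective_iff_injective_and_card Φ).2 ⟨hinj, hcard⟩).2 ⟨g, hg, hu⟩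
  exact ⟨_, _, _, _, _, _, _, _, _, _, _, _, (congrArg Subtype.val hx).symm⟩

/-- The normaliser of `U¹` in the group lies in `B¹`. -/
theorem Setting.normalizer_le {g : GL chevF4.Idx K} (hg : g ∈ twistedF4 K (2 ^ m))
    (hn : ∀ u, u ∈ twistedF4 K (2 ^ m) → u ∈ chevF4.posUnipotent K → g * u * g⁻¹ ∈ chevF4.posUnipotent K) :
    ∃ u t u', u ∈ twistedF4 K (2 ^ m) ∧ u ∈ chevF4.posUnipotent K ∧ t ∈ twistedF4 K (2 ^ m) ∧
      t ∈ chevF4.diagonalSubgroup K ∧ u' ∈ twistedF4 K (2 ^ m) ∧ u' ∈ chevF4.posUnipotent K ∧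
      g = u * t * u' := by
  have := S.finite
  have : Fintype K := Fintype.ofFinite K
  obtain ⟨ρ, φ, hG, hJ⟩ := fixedDataF4 (K := K) (m := m) (by rw [← Nat.card_eq_fintype_card]; exact S.card)
  obtain ⟨u, n, v, hu, huU, hn', hnm, hv, hvU, e, τ, η, hA, -⟩ := hG.exists_form hg
  refine ⟨u, n, v, hu, huU, hn', ?_, hv, hvU, e⟩
  have move : ∀ {x : GL chevF4.Idx K}, x ∈ twistedF4 K (2 ^ m) → x ∈ chevF4.posUnipotent K →
      n * x * n⁻¹ ∈ chevF4.posUnipotent K := by
    intro x hxG hxU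
    have h1 := hn _ (mul_mem (mul_mem (inv_mem hv) hxG) hv) (mul_mem (mul_mem (inv_mem hvU) hxU) hvU)
    have h3 := mul_mem (mul_mem (inv_mem huU) h1) huU
    convert h3 using 1
    rw [e]
    group
  refine mem_diagonal_of_perm full hnm hA fun i => ?_
  refine (full.pos.pos_or_neg (τ (smp full.cert i)).isLt).resolve_right fun hneg => ?_
  obtain ⟨J, hJm, hiJ⟩ := hJ.cover i
  have hall : ∀ j ∈ J, chevF4.IsNegRoot (τ (smp full.cert j)) := by
    intro j hj
    obtain ⟨k, hk⟩ := hJ.transitive J hJm i hiJ j hj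
    rw [← hk, hG.perm_comm hnm (hG.fix n hn') hA k]
    exact hG.pow_isNeg k hneg
  have hbot : ∀ {x : GL chevF4.Idx K}, x ∈ chevF4.posUnipotent K → x ∈ chevF4.negUnipotent K → x = 1 := by
    intro x hx hx'
    rw [← Subgroup.mem_bot, ← borel_inf_negUnipotent full]
    exact ⟨Subgroup.mem_sup_left hx, hx'⟩
  have hneg' : ∀ r : Fin chevF4.nroots, (r : ℕ) ∈ subPos chevF4 auxF4 J → ∀ t : K,
      n * X r t * n⁻¹ ∈ chevF4.negUnipotent K := by
    intro r hr t
    rw [hA.conj]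
    exact xG_mem_rootsU (S := {r | chevF4.IsNegRoot r}) full.cert (Acts_isNeg_subPos full hA hall hr) _
  have hcrd : (∀ r ∈ [33, 24], ∀ i : Fin chevF4.rank, (i : ℕ) ∉ [0, 3] → crd auxF4 i r = 0) ∧
      (∀ r ∈ [28, 30], ∀ i : Fin chevF4.rank, (i : ℕ) ∉ [1, 2] → crd auxF4 i r = 0) := by
    decide +kernel
  have pos : ∀ r : ℕ, 24 ≤ r ∧ r < 48 → chevF4.IsPosRoot r := fun r h => CfsgLib.OutAut.F4Pair.isPos_iff.2 h
  obtain ⟨L, hL, rfl⟩ := hJm
  simp only [List.mem_cons, List.not_mem_nil, or_false] at hL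
  rcases hL with rfl | rfl
  · have hU1 : o1 σ (1 : K) ∈ chevF4.posUnipotent K :=
      mul_mem (xG_mem_rootsU (S := {r | chevF4.IsPosRoot r}) full.cert (pos 33 (by omega)) _)
        (xG_mem_rootsU (S := {r | chevF4.IsPosRoot r}) full.cert (pos 24 (by omega)) _)
    have := hbot (move (S.mem_pair 1).1 hU1) (by
      rw [o1, conj_mul']
      exact mul_mem (hneg' ⟨33, by decide⟩ ⟨pos 33 (by omega), hcrd.1 33 (by simp)⟩ _)
        (hneg' ⟨24, by decide⟩ ⟨pos 24 (by omega), hcrd.1 24 (by simp)⟩ _))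
    rw [conj_eq_one_iff] at this
    have h' : N σ (1 : K) 0 0 0 0 0 0 0 0 0 0 0 = N σ 0 0 0 0 0 0 0 0 0 0 0 0 := by
      simp only [N, o1, o2, o3, o4, o5, o6, o7, o8, map_zero, xG_zero, mul_zero, add_zero, one_mul, mul_one]
      exact this
    exact one_ne_zero (N_inj h').1
  · have hU8 : o8 σ (0 : K) 1 ∈ chevF4.posUnipotent K := by
      simp only [o8]
      refine mul_mem (mul_mem (mul_mem ?_ ?_) ?_) ?_ <;>
        exact xG_mem_rootsU (S := {r | chevF4.IsPosRoot r}) full.cert (pos _ (by omega)) _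
    have := hbot (move (S.mem_o8 0 1) hU8) (by
      simp only [o8, map_zero, map_one, xG_zero, one_mul, mul_zero, zero_add, conj_mul']
      exact mul_mem (hneg' ⟨28, by decide⟩ ⟨pos 28 (by omega), hcrd.2 28 (by simp)⟩ _)
        (hneg' ⟨30, by decide⟩ ⟨pos 30 (by omega), hcrd.2 30 (by simp)⟩ _))
    rw [conj_eq_one_iff] at this
    have h' : N σ (0 : K) 0 0 0 0 0 0 0 0 0 0 1 = N σ 0 0 0 0 0 0 0 0 0 0 0 0 := by
      simp only [N, o1, o2, o3, o4, o5, o6, o7, map_zero, xG_zero, mul_zero, add_zero, one_mul, mul_one]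
      rw [this]
      simp [o8, xG_zero]
    exact one_ne_zero (N_inj h').2.2.2.2.2.2.2.2.2.2.2

/-- Every involution is conjugate into `U¹`. -/
theorem Setting.exists_conj {g : GL chevF4.Idx K} (hg : g ∈ twistedF4 K (2 ^ m)) (h2 : g * g = 1) :
    ∃ x ∈ twistedF4 K (2 ^ m), x * g * x⁻¹ ∈ chevF4.posUnipotent K := by
  classical
  have := S.finite
  have : Fintype K := Fintype.ofFinite K
  have : Fact (Nat.Prime 2) := ⟨Nat.prime_two⟩
  set G := twistedF4 K (2 ^ m) with hG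
  set U : Subgroup G := (chevF4.posUnipotent K).subgroupOf G with hU
  have hUp : IsPGroup 2 U :=
    (OutAut.isPGroup_posUnipotent full).of_injective
      ((G.subtype.comp U.subtype).codRestrict (chevF4.posUnipotent K) fun x => Subgroup.mem_subgroupOf.1 x.2)
      (fun a b h => Subtype.ext (Subtype.ext
        (congrArg (fun z : chevF4.posUnipotent K => (z : GL chevF4.Idx K)) h)))
  obtain ⟨P, hP⟩ := hUp.exists_le_sylow
  have hUP : (P : Subgroup G) = U := by
    refine le_antisymm ?_ hP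
    by_contra hne
    have hlt : U.subgroupOf (P : Subgroup G) < ⊤ := by
      refine lt_of_le_of_ne le_top fun htop => hne fun p hp => ?_
      exact Subgroup.mem_subgroupOf.1 (htop ▸ Subgroup.mem_top (⟨p, hp⟩ : (P : Subgroup G)))
    have : Group.IsNilpotent (P : Subgroup G) := P.isPGroup'.isNilpotent
    obtain ⟨x, hxN, hxU⟩ := SetLike.exists_of_lt (Group.normalizerCondition_of_isNilpotent _ hlt)
    obtain ⟨u, t, u', hu, huU, ht, htD, hu', hu'U, e⟩ := S.normalizer_le (x : G).2 fun v hv hvU => by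
      have hv' : (⟨⟨v, hv⟩, hP (Subgroup.mem_subgroupOf.2 hvU)⟩ : (P : Subgroup G)) ∈
          U.subgroupOf (P : Subgroup G) := Subgroup.mem_subgroupOf.2 (Subgroup.mem_subgroupOf.2 hvU)
      exact Subgroup.mem_subgroupOf.1
        (Subgroup.mem_subgroupOf.1 ((Subgroup.mem_normalizer_iff.1 hxN _).1 hv'))
    have htP : (⟨t, ht⟩ : G) ∈ (P : Subgroup G) := by
      have h1 : (⟨t, ht⟩ : G) = (⟨u, hu⟩ : G)⁻¹ * (x : G) * (⟨u', hu'⟩ : G)⁻¹ := Subtype.ext (by
        show t = u⁻¹ * ((x : G) : GL chevF4.Idx K) * u'⁻¹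
        rw [e]
        group)
      rw [h1]
      exact mul_mem (mul_mem (inv_mem (hP (Subgroup.mem_subgroupOf.2 huU))) x.2)
        (inv_mem (hP (Subgroup.mem_subgroupOf.2 hu'U)))
    obtain ⟨i, hi⟩ := IsPGroup.iff_orderOf.1 P.isPGroup' ⟨_, htP⟩
    rw [← Subgroup.orderOf_coe, ← Subgroup.orderOf_coe] at hi
    have ht1 : t = 1 := by
      rw [← orderOf_eq_one_iff]
      refine Nat.eq_one_of_dvd_coprimes ?_ (show orderOf t ∣ 2 ^ i from hi ▸ dvd_rfl) dvd_rfl
      exact (Nat.coprime_two_left.2 (OutAut.odd_orderOf_diagonal full htD)).pow_left i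
    exact hxU (Subgroup.mem_subgroupOf.2 (Subgroup.mem_subgroupOf.2
      (by rw [e, ht1, mul_one]; exact mul_mem huU hu'U)))
  have hgp : IsPGroup 2 (Subgroup.zpowers (⟨g, hg⟩ : G)) := by
    obtain ⟨i, -, hi⟩ := (Nat.dvd_prime_pow Nat.prime_two).1
      (orderOf_dvd_of_pow_eq_one (x := (⟨g, hg⟩ : G)) (n := 2 ^ 1) (Subtype.ext (by simp [sq, h2])))
    exact IsPGroup.of_card (n := i) (by rw [Nat.card_zpowers, hi])
  obtain ⟨Q, hQ⟩ := hgp.exists_le_sylow
  obtain ⟨x, hx⟩ := MulAction.exists_smul_eq G Q P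
  refine ⟨(x : GL chevF4.Idx K), x.2, ?_⟩
  have h1 : x * ⟨g, hg⟩ * x⁻¹ ∈ (x • Q : Sylow 2 G) :=
    Subgroup.smul_mem_pointwise_smul (⟨g, hg⟩ : G) (MulAut.conj x) _ (hQ (Subgroup.mem_zpowers _))
  rw [hx] at h1
  exact Subgroup.mem_subgroupOf.1 (hUP ▸ h1 : x * ⟨g, hg⟩ * x⁻¹ ∈ U)

end CfsgLib.ReeFourInvolutions
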