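import Cfsg.Agent.Lib.ReeFourInvolutions.Classes
import Cfsg.Agent.Lib.Components2.TitsInvolutions

/-!
`²F₄(q)` and the Tits group have two classes of involutions.
-/

set_option autoImplicit false
set_option linter.unusedSectionVars false
set_option linter.unusedSimpArgs false
set_option maxRecDepth 20000
set_option maxHeartbeats 2000000

namespace CfsgLib.ReeFourInvolutions

open Cfsg.Lie CfsgLib.Chevalley CfsgLib.Twisted
open CfsgLib.OutAut.F4Pair (full X)

variable {K : Type*} [Field K] [CharP K 2] {σ : K →+* K} {m : ℕ} (S : Setting σ m)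

include S

/-- A word of `U¹` has coordinates. -/
theorem rel_word {g W : GL chevF4.Idx K} (hg : g ∈ twistedF4 K (2 ^ m)) (hW : W ∈ chevF4.posUnipotent K)
    (r : Rel m g W) :
    ∃ a t2 v2 c t4 v4 e t6 v6 y t8 v8, W = N σ a t2 v2 c t4 v4 e t6 v6 y t8 v8 := by
  obtain ⟨k, hk, rfl⟩ := r
  exact S.exists_N (S.conj_mem hk hg) hW

/-- The two kinds of involutions. -/
def Two (σ : K →+* K) (m : ℕ) (g : GL chevF4.Idx K) : Prop := Rel m g (o1 σ 1) ∨ Rel m g (o4 σ 0 1)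

theorem Two.of_rel {g y : GL chevF4.Idx K} (r : Rel m g y) (h : Two σ m y) : Two σ m g :=
  h.imp r.trans r.trans

theorem two_of_seven {t2 v2 c t4 v4 e t6 v6 y : K} (hy : y ≠ 0)
    (h : N σ 0 t2 v2 c t4 v4 e t6 v6 y 0 0 * N σ 0 t2 v2 c t4 v4 e t6 v6 y 0 0 = 1) :
    Two σ m (N σ 0 t2 v2 c t4 v4 e t6 v6 y 0 0) := by
  have r : Rel m (N σ 0 t2 v2 c t4 v4 e t6 v6 y 0 0)
      (o6 σ t2 v2 * o5 σ c * o4 σ t4 v4 * o3 σ e * o2 σ t6 v6 * o1 σ y) := by
    refine ⟨wB, S.wB_mem, ?_⟩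
    o_trim
    simp only [conj_mul', wB_o2, wB_o3, wB_o4, wB_o5, wB_o6, wB_o7]
  obtain ⟨a', b', B', c', d', D', e', f', F', g', h', H', eq⟩ := rel_word S (S.N_mem _ _ _ _ _ _ _ _ _ _ _ _) (by
    obtain ⟨u1, u2, -, -, -, -, -, -⟩ := o_mem_U S y t6 v6
    obtain ⟨-, -, u3, -, -, -, -, -⟩ := o_mem_U S e t6 v6
    obtain ⟨-, -, -, u4, u5, -, -, -⟩ := o_mem_U S c t4 v4
    obtain ⟨-, -, -, -, -, u6, -, -⟩ := o_mem_U S c t2 v2
    exact mul_mem (mul_mem (mul_mem (mul_mem (mul_mem u6 u5) u4) u3) u2) u1) r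
  rw [eq] at r
  f4_coords_at eq
  obtain ⟨e24, e25, e26, e27, e28, e29, e30, e31, e32, e33, e34, e35, e36, e37, e38, e39, e40, e41, e42, e43, e44, e45, e46, e47⟩ := eq
  obtain rfl : a' = y := by grind
  exact Or.inl (r.trans (rel_pair S hy (r.sq h)))

theorem two_of_two {t2 v2 c t4 v4 e t6 v6 : K} (hne : t2 ≠ 0 ∨ v2 ≠ 0)
    (h : N σ 0 t2 v2 c t4 v4 e t6 v6 0 0 0 * N σ 0 t2 v2 c t4 v4 e t6 v6 0 0 0 = 1) :
    Two σ m (N σ 0 t2 v2 c t4 v4 e t6 v6 0 0 0) := by
  have r : Rel m (N σ 0 t2 v2 c t4 v4 e t6 v6 0 0 0)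
      (o8 σ t2 v2 * o7 σ c * o6 σ t4 v4 * o5 σ e * o4 σ t6 v6) := by
    refine ⟨wA, S.wA_mem, ?_⟩
    o_trim
    simp only [conj_mul', wA_o2, wA_o3, wA_o4, wA_o5, wA_o6]
  obtain ⟨a', b', B', c', d', D', e', f', F', g', h', H', eq⟩ := rel_word S (S.N_mem _ _ _ _ _ _ _ _ _ _ _ _) (by
    obtain ⟨-, -, -, -, -, -, u7, u8⟩ := o_mem_U S c t2 v2
    obtain ⟨-, -, -, -, u5, u6, -, -⟩ := o_mem_U S e t4 v4
    obtain ⟨-, -, -, u4, -, -, -, -⟩ := o_mem_U S e t6 v6
    exact mul_mem (mul_mem (mul_mem (mul_mem u8 u7) u6) u5) u4) r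
  rw [eq] at r
  f4_coords_at eq
  obtain ⟨e24, e25, e26, e27, e28, e29, e30, e31, e32, e33, e34, e35, e36, e37, e38, e39, e40, e41, e42, e43, e44, e45, e46, e47⟩ := eq
  obtain rfl : a' = 0 := by grind
  obtain rfl : h' = t2 := by grind
  simp only [map_zero] at *
  obtain rfl : H' = v2 := by grind
  exact Two.of_rel S r (rel_centre S hne (r.sq h))

theorem two_of_six {c t4 v4 e t6 v6 : K} (hne : t6 ≠ 0 ∨ v6 ≠ 0)
    (h : N σ 0 0 0 c t4 v4 e t6 v6 0 0 0 * N σ 0 0 0 c t4 v4 e t6 v6 0 0 0 = 1) :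
    Two σ m (N σ 0 0 0 c t4 v4 e t6 v6 0 0 0) := by
  have r : Rel m (N σ 0 0 0 c t4 v4 e t6 v6 0 0 0) (o5 σ c * o4 σ t4 v4 * o3 σ e * o2 σ t6 v6) := by
    refine ⟨wB, S.wB_mem, ?_⟩
    o_trim
    simp only [conj_mul', wB_o3, wB_o4, wB_o5, wB_o6]
  obtain ⟨a', b', B', c', d', D', e', f', F', g', h', H', eq⟩ := rel_word S (S.N_mem _ _ _ _ _ _ _ _ _ _ _ _) (by
    obtain ⟨-, u2, u3, -, -, -, -, -⟩ := o_mem_U S e t6 v6
    obtain ⟨-, -, -, u4, u5, -, -, -⟩ := o_mem_U S c t4 v4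
    exact mul_mem (mul_mem (mul_mem u5 u4) u3) u2) r
  rw [eq] at r
  f4_coords_at eq
  obtain ⟨e24, e25, e26, e27, e28, e29, e30, e31, e32, e33, e34, e35, e36, e37, e38, e39, e40, e41, e42, e43, e44, e45, e46, e47⟩ := eq
  obtain rfl : a' = 0 := by grind
  obtain rfl : h' = 0 := by grind
  simp only [map_zero] at *
  obtain rfl : H' = 0 := by grind
  obtain rfl : b' = t6 := by grind
  simp only [map_zero] at *
  obtain rfl : f' = 0 := by grind
  simp only [map_zero] at *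
  obtain rfl : g' = 0 := by grind
  refine Two.of_rel S r (two_of_two S ?_ (r.sq h))
  by_cases ht : b' = 0
  · subst ht
    simp only [map_zero] at *
    obtain rfl : B' = v6 := by grind
    exact hne
  · exact Or.inl ht

theorem two_of_three {c t4 v4 e : K} (hc : c ≠ 0)
    (h : N σ 0 0 0 c t4 v4 e 0 0 0 0 0 * N σ 0 0 0 c t4 v4 e 0 0 0 0 0 = 1) :
    Two σ m (N σ 0 0 0 c t4 v4 e 0 0 0 0 0) := by
  have r : Rel m (N σ 0 0 0 c t4 v4 e 0 0 0 0 0) (o7 σ c * o6 σ t4 v4 * o5 σ e) := by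
    refine ⟨wA, S.wA_mem, ?_⟩
    o_trim
    simp only [conj_mul', wA_o3, wA_o4, wA_o5]
  obtain ⟨a', b', B', c', d', D', e', f', F', g', h', H', eq⟩ := rel_word S (S.N_mem _ _ _ _ _ _ _ _ _ _ _ _) (by
    obtain ⟨-, -, -, -, -, u6, u7, -⟩ := o_mem_U S c t4 v4
    obtain ⟨-, -, -, -, u5, -, -, -⟩ := o_mem_U S e t4 v4
    exact mul_mem (mul_mem u7 u6) u5) r
  rw [eq] at r
  f4_coords_at eq
  obtain ⟨e24, e25, e26, e27, e28, e29, e30, e31, e32, e33, e34, e35, e36, e37, e38, e39, e40, e41, e42, e43, e44, e45, e46, e47⟩ := eq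
  obtain rfl : a' = 0 := by grind
  obtain rfl : h' = 0 := by grind
  simp only [map_zero] at *
  obtain rfl : H' = 0 := by grind
  obtain rfl : g' = c := by grind
  exact Two.of_rel S r (two_of_seven S hc (r.sq h))

theorem two_of_five {t4 v4 e : K} (he : e ≠ 0)
    (h : N σ 0 0 0 0 t4 v4 e 0 0 0 0 0 * N σ 0 0 0 0 t4 v4 e 0 0 0 0 0 = 1) :
    Two σ m (N σ 0 0 0 0 t4 v4 e 0 0 0 0 0) := by
  have r : Rel m (N σ 0 0 0 0 t4 v4 e 0 0 0 0 0) (o4 σ t4 v4 * o3 σ e) := by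
    refine ⟨wB, S.wB_mem, ?_⟩
    o_trim
    simp only [conj_mul', wB_o4, wB_o5]
  obtain ⟨a', b', B', c', d', D', e', f', F', g', h', H', eq⟩ := rel_word S (S.N_mem _ _ _ _ _ _ _ _ _ _ _ _) (by
    obtain ⟨-, -, u3, u4, -, -, -, -⟩ := o_mem_U S e t4 v4
    exact mul_mem u4 u3) r
  rw [eq] at r
  f4_coords_at eq
  obtain ⟨e24, e25, e26, e27, e28, e29, e30, e31, e32, e33, e34, e35, e36, e37, e38, e39, e40, e41, e42, e43, e44, e45, e46, e47⟩ := eq
  obtain rfl : a' = 0 := by grind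
  obtain rfl : h' = 0 := by grind
  obtain rfl : b' = 0 := by grind
  simp only [map_zero] at *
  obtain rfl : H' = 0 := by grind
  obtain rfl : f' = 0 := by grind
  simp only [map_zero] at *
  obtain rfl : g' = 0 := by grind
  obtain rfl : B' = 0 := by grind
  simp only [map_zero] at *
  obtain rfl : c' = e := by grind
  obtain rfl : F' = 0 := by grind
  exact Two.of_rel S r (two_of_three S he (r.sq h))

theorem two_of_involution {g : GL chevF4.Idx K} (hgG : g ∈ twistedF4 K (2 ^ m))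
    (hgU : g ∈ chevF4.posUnipotent K) (h2 : g * g = 1) (h1 : g ≠ 1) : Two σ m g := by
  obtain ⟨a, t2, v2, c, t4, v4, e, t6, v6, y, t8, v8, rfl⟩ := S.exists_N hgG hgU
  by_cases ha : a = 0
  swap
  · exact Or.inl (rel_pair S ha h2)
  subst ha
  by_cases h8 : t8 ≠ 0 ∨ v8 ≠ 0
  · exact rel_centre S h8 h2
  obtain ⟨rfl, rfl⟩ : t8 = 0 ∧ v8 = 0 := by simpa [not_or] using h8
  by_cases hy : y = 0
  swap
  · exact two_of_seven S hy h2
  subst hy
  by_cases hh : t2 ≠ 0 ∨ v2 ≠ 0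
  · exact two_of_two S hh h2
  obtain ⟨rfl, rfl⟩ : t2 = 0 ∧ v2 = 0 := by simpa [not_or] using hh
  by_cases h6 : t6 ≠ 0 ∨ v6 ≠ 0
  · exact two_of_six S h6 h2
  obtain ⟨rfl, rfl⟩ : t6 = 0 ∧ v6 = 0 := by simpa [not_or] using h6
  by_cases hc : c = 0
  swap
  · exact two_of_three S hc h2
  subst hc
  by_cases he : e = 0
  swap
  · exact two_of_five S he h2
  subst he
  have hne : t4 ≠ 0 ∨ v4 ≠ 0 := by
    by_contra hn
    obtain ⟨rfl, rfl⟩ : t4 = 0 ∧ v4 = 0 := by simpa [not_or] using hn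
    exact h1 (by o_trim)
  have r : Rel m (N σ 0 0 0 0 t4 v4 0 0 0 0 0 0) (N σ 0 0 0 0 0 0 0 t4 v4 0 0 0) := by
    refine ⟨wA, S.wA_mem, ?_⟩
    o_trim
    exact wA_o4 σ t4 v4
  exact Two.of_rel S r (two_of_six S hne (r.sq h2))

omit S in
theorem pairing_invariant (i : Fin chevF4.rank) (x y : Fin chevF4.nroots) :
    chevF4.pairing (chevF4.reflectRoot i x) (chevF4.reflectRoot i y) = chevF4.pairing x y := by
  revert i x y
  decide +kernel

omit S in
theorem pairing_perm {n : GL chevF4.Idx K} {τ : Equiv.Perm (Fin chevF4.nroots)} {η : Fin chevF4.nroots → K}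
    (hn : n ∈ chevF4.monomialSubgroup K) (hA : Acts full.cert n τ η) (r s : Fin chevF4.nroots) :
    chevF4.pairing (τ r) (τ s) = chevF4.pairing r s := by
  obtain ⟨l, t, ht, rfl⟩ := (mem_monomial_iff full).1 hn
  rw [diagonalSubgroup_eq_range full] at ht
  obtain ⟨c, rfl⟩ := ht
  obtain ⟨η', hη'⟩ := acts_nW (F := K) full l
  obtain rfl : τ = wPerm full.cert l := by simpa using hA.perm_eq (hη'.mul (acts_torus full.cert c))
  clear hA hη' hn
  induction l with
  | nil => simp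
  | cons i l ih =>
    rw [wPerm_cons, Equiv.Perm.mul_apply, Equiv.Perm.mul_apply, rfPerm_apply, rfPerm_apply, ← ih]
    exact pairing_invariant i (wPerm full.cert l r) (wPerm full.cert l s)

theorem centre_commute {g : GL chevF4.Idx K} (hg : g ∈ chevF4.posUnipotent K) :
    Commute (o4 σ 0 1) g := by
  rw [posUnipotent_eq, set_pos] at hg
  have p : ∀ r : ℕ, 24 ≤ r ∧ r < 48 → chevF4.IsPosRoot r := fun r h => CfsgLib.OutAut.F4Pair.isPos_iff.2 h
  simp only [o4, map_zero, map_one, xG_zero, one_mul, mul_zero, zero_add]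
  exact (CfsgLib.OutAut.F4Pair.commute_rootsU (p 44 (by omega)) (S := posL) (by decide +kernel) 1 hg).mul_left
    (CfsgLib.OutAut.F4Pair.commute_rootsU (p 47 (by omega)) (S := posL) (by decide +kernel) 1 hg)

omit S in
theorem prodU_single_pair (t u : K) {r s : ℕ} (hr : r ∈ posL) (hs : s ∈ posL) (hne : r < s) :
    X r t * X s u = prodU full.cert posL (fun k => if k = r then t else if k = s then u else 0) := by
  have hz : ∀ L : List ℕ, L.Pairwise (· < ·) → (∀ k ∈ L, k ≠ r ∧ k ≠ s) →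
      prodU full.cert L (fun k => if k = r then t else if k = s then u else 0) = 1 := by
    intro L
    induction L with
    | nil => intros; rfl
    | cons k L ih =>
      intro hp h
      rw [prodU_cons, ih (List.pairwise_cons.1 hp).2 fun x hx => h x (List.mem_cons_of_mem _ hx),
        if_neg (h k (by simp)).1, if_neg (h k (by simp)).2, xG_zero, one_mul]
  have h1 : ∀ L : List ℕ, L.Pairwise (· < ·) → r ∉ L → s ∈ L →
      prodU full.cert L (fun k => if k = r then t else if k = s then u else 0) = X s u := by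
    intro L
    induction L with
    | nil => intro _ _ h; simp at h
    | cons k L ih =>
      intro hp hrL h
      rw [List.mem_cons, not_or] at hrL
      obtain ⟨hlt, hp'⟩ := List.pairwise_cons.1 hp
      rw [prodU_cons]
      rcases List.mem_cons.1 h with rfl | h
      · rw [hz L hp' fun x hx => ⟨fun e => hrL.2 (e ▸ hx), (hlt x hx).ne'⟩, if_neg (Ne.symm hrL.1), if_pos rfl,
          mul_one]
      · rw [ih hp' hrL.2 h, if_neg (Ne.symm hrL.1), if_neg (hlt s h).ne, xG_zero, one_mul]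
  have h2 : ∀ L : List ℕ, L.Pairwise (· < ·) → r ∈ L → s ∈ L →
      prodU full.cert L (fun k => if k = r then t else if k = s then u else 0) = X r t * X s u := by
    intro L
    induction L with
    | nil => intro _ h; simp at h
    | cons k L ih =>
      intro hp hr hs
      obtain ⟨hlt, hp'⟩ := List.pairwise_cons.1 hp
      rw [prodU_cons]
      rcases List.mem_cons.1 hr with rfl | hr'
      · rw [h1 L hp' (fun h => lt_irrefl _ (hlt r h)) ((List.mem_cons.1 hs).resolve_left hne.ne'), if_pos rfl]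
      · have hks : k ≠ s := fun e => absurd ((hlt r hr').trans hne) (e ▸ lt_irrefl s)
        rw [ih hp' hr' ((List.mem_cons.1 hs).resolve_left (Ne.symm hks)), if_neg (hlt r hr').ne, if_neg hks,
          xG_zero, one_mul]
  exact (h2 posL (by decide) hr hs).symm

/-- The two representatives are not conjugate. -/
theorem not_rel : ¬ Rel m (o4 σ 0 1) (o1 σ 1) := by
  rintro ⟨h, hh, e⟩
  have := S.finite
  have : Fintype K := Fintype.ofFinite K
  obtain ⟨ρ, φ, hG, -⟩ := fixedDataF4 (K := K) (m := m) (by rw [← Nat.card_eq_fintype_card]; exact S.card)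
  obtain ⟨u, n, v, hu, huU, hn, hnm, hv, hvU, eh, τ, η, hA, -⟩ := hG.exists_form hh
  have hconj : u⁻¹ * o1 σ 1 * u = n * o4 σ 0 1 * n⁻¹ := by
    rw [← e, eh, show u⁻¹ * (u * n * v * o4 σ 0 1 * (u * n * v)⁻¹) * u = n * (v * o4 σ 0 1) * v⁻¹ * n⁻¹ by group,
      ← (centre_commute S hvU).eq]
    group
  have hinG : u⁻¹ * o1 σ 1 * u ∈ twistedF4 K (2 ^ m) := mul_mem (mul_mem (inv_mem hu) (S.mem_pair 1).1) hu
  have hinU : u⁻¹ * o1 σ 1 * u ∈ chevF4.posUnipotent K := mul_mem (mul_mem (inv_mem huU) (o_mem_U S 1 0 0).1) huU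
  obtain ⟨a', b', B', c', d', D', e', f', F', g', h', H', eq⟩ := S.exists_N hinG hinU
  obtain ⟨x1, x2, x3, x4, x5, x6, x7, x8, x9, x10, x11, x12, equ⟩ := S.exists_N hu huU
  have ha' : a' = 1 := by
    have h0 : o1 σ 1 * u = u * N σ a' b' B' c' d' D' e' f' F' g' h' H' := by
      rw [← eq]; group
    rw [equ] at h0
    f4_coords_at h0
    obtain ⟨e24, e25, e26, e27, e28, e29, e30, e31, e32, e33, e34, e35, e36, e37, e38, e39, e40, e41, e42, e43, e44, e45, e46, e47⟩ := h0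
    grind
  subst ha'
  simp only [o4, map_zero, map_one, xG_zero, one_mul, mul_zero, zero_add] at hconj
  rw [eq, conj_mul', show X 44 (1 : K) = X ((⟨44, by decide⟩ : Fin chevF4.nroots) : ℕ) 1 from rfl,
    show X 47 (1 : K) = X ((⟨47, by decide⟩ : Fin chevF4.nroots) : ℕ) 1 from rfl, hA.conj, hA.conj] at hconj
  have hpair := pairing_perm hnm hA ⟨44, by decide⟩ ⟨47, by decide⟩
  have hpair' := pairing_perm hnm hA ⟨47, by decide⟩ ⟨44, by decide⟩
  have hne : τ ⟨44, by decide⟩ ≠ τ ⟨47, by decide⟩ := fun h => by simpa using τ.injective h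
  have ht : η ⟨44, by decide⟩ * 1 ≠ 0 := mul_ne_zero (hA.ne_zero _) one_ne_zero
  have ht' : η ⟨47, by decide⟩ * 1 ≠ 0 := mul_ne_zero (hA.ne_zero _) one_ne_zero
  have hcomm : Commute (X (τ ⟨44, by decide⟩) (η ⟨44, by decide⟩ * 1))
      (X (τ ⟨47, by decide⟩) (η ⟨47, by decide⟩ * 1)) := by
    have hc : Commute (X 44 (1 : K)) (X 47 1) :=
      CfsgLib.OutAut.F4Pair.commute_of_even (CfsgLib.OutAut.F4Pair.isPos_iff.2 (by omega))
        (CfsgLib.OutAut.F4Pair.isPos_iff.2 (by omega)) (by decide +kernel) 1 1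
    have hc' := hc.map (MulAut.conj n)
    simp only [MulAut.conj_apply] at hc'
    rwa [show X 44 (1 : K) = X ((⟨44, by decide⟩ : Fin chevF4.nroots) : ℕ) 1 from rfl,
      show X 47 (1 : K) = X ((⟨47, by decide⟩ : Fin chevF4.nroots) : ℕ) 1 from rfl, hA.conj, hA.conj] at hc'
  generalize η ⟨44, by decide⟩ * 1 = t at hconj ht hcomm
  generalize η ⟨47, by decide⟩ * 1 = t' at hconj ht' hcomm
  generalize τ ⟨44, by decide⟩ = r at hconj hpair hpair' hne hcomm
  generalize τ ⟨47, by decide⟩ = r' at hconj hpair hpair' hne hcomm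
  have hN : N σ 1 b' B' c' d' D' e' f' F' g' h' H' ∈ chevF4.posUnipotent K :=
    N_mem_U _ _ _ _ _ _ _ _ _ _ _ _
  have hX : ∀ (k : Fin chevF4.nroots) (z : K), chevF4.IsPosRoot k → X k z ∈ chevF4.posUnipotent K := fun k z hk =>
    xG_mem_rootsU (S := {r | chevF4.IsPosRoot r}) full.cert hk z
  rw [hconj] at hN
  have hr : chevF4.IsPosRoot r ∧ chevF4.IsPosRoot r' := by
    rcases full.pos.pos_or_neg r.isLt with hp | hp <;> rcases full.pos.pos_or_neg r'.isLt with hp' | hp'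
    · exact ⟨hp, hp'⟩
    · exact absurd ((Subgroup.mul_mem_cancel_left _ (hX r t hp)).1 hN)
        (CfsgLib.OutAut.xG_notMem_posUnipotent full hp' ht')
    · exact absurd ((Subgroup.mul_mem_cancel_right _ (hX r' t' hp')).1 hN)
        (CfsgLib.OutAut.xG_notMem_posUnipotent full hp ht)
    · have h1 : X r t * X r' t' = 1 := by
        rw [← Subgroup.mem_bot, ← borel_inf_negUnipotent full]
        exact ⟨Subgroup.mem_sup_left hN, mul_mem (xG_mem_rootsU (S := {r | chevF4.IsNegRoot r}) full.cert hp t)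
          (xG_mem_rootsU (S := {r | chevF4.IsNegRoot r}) full.cert hp' t')⟩
      rw [← hconj] at h1
      have h0 : N σ (1 : K) b' B' c' d' D' e' f' F' g' h' H' = N σ 0 0 0 0 0 0 0 0 0 0 0 0 := by
        rw [h1]; o_trim
      exact absurd (N_inj h0).1 one_ne_zero
  obtain ⟨hr, hr'⟩ := hr
  have hmem : (r : ℕ) ∈ posL ∧ (r' : ℕ) ∈ posL :=
    ⟨(Set.ext_iff.1 set_pos _).1 hr, (Set.ext_iff.1 set_pos _).1 hr'⟩
  have finish : ∀ (p p' : Fin chevF4.nroots) (z z' : K), (p : ℕ) < p' → (p : ℕ) ∈ posL → (p' : ℕ) ∈ posL →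
      N σ 1 b' B' c' d' D' e' f' F' g' h' H' = X p z * X p' z' → (p : ℕ) = 24 ∧ (p' : ℕ) = 33 := by
    intro p p' z z' hlt hp hp' hN'
    rw [N_eq_prodU, prodU_single_pair z z' hp hp' hlt] at hN'
    have k24 := prodU_inj hN' 24 (by simp)
    have k33 := prodU_inj hN' 33 (by simp)
    simp only [co, Nat.reduceSub, List.getD_cons_zero, List.getD_cons_succ, map_one] at k24 k33
    by_cases a1 : (24 : ℕ) = p <;> by_cases a2 : (24 : ℕ) = p' <;> by_cases a3 : (33 : ℕ) = p <;>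
      by_cases a4 : (33 : ℕ) = p' <;> first
      | omega
      | (exfalso; simp [a1, a2] at k24; done)
      | (exfalso; simp [a3, a4] at k33; done)
  have e24 : chevF4.pairing 24 33 = 0 ∧ chevF4.pairing 33 24 = 0 ∧ chevF4.pairing 44 47 ≠ 0 ∧
      chevF4.pairing 47 44 ≠ 0 := by decide +kernel
  rcases lt_trichotomy (r : ℕ) r' with hlt | heq | hlt
  · obtain ⟨q1, q2⟩ := finish r r' t t' hlt hmem.1 hmem.2 hconj
    rw [q1, q2] at hpair
    exact e24.2.2.1 (hpair.symm.trans e24.1)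
  · exact hne (Fin.ext heq)
  · obtain ⟨q1, q2⟩ := finish r' r t' t hlt hmem.2 hmem.1 (hconj.trans hcomm.eq)
    rw [q1, q2] at hpair'
    exact e24.2.2.2 (hpair'.symm.trans e24.1)

end CfsgLib.ReeFourInvolutions
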